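import Cfsg.Agent.H4.Glb9

/-!
# Invariant constituents above
-/

set_option autoImplicit false

open Cfsg MonoidAlgebra
open CfsgH4 hiding centralChar sum_conj
open CfsgH5 ComplexConjugate

namespace CfsgH4

section Above

theorem hom_finite (G : Type*) [Group G] [Finite G] : Finite (G →* ℂˣ) := by
  refine Finite.of_injective (β := IrrCharacter G)
    (fun f => ⟨fun g => (f g : ℂ), isCharacter_one_dim f⟩) ?_
  intro f g h
  exact linHom_injective (congrArg Subtype.val h)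

/-- characters above a common character, abelian quotient -/
theorem exists_linear_of_common {G : Type*} [Group G] [Fintype G] (N : Subgroup G) [hN : N.Normal]
    [Fintype N] (hab : ∀ x y : G, x * y * x⁻¹ * y⁻¹ ∈ N) {χ ψ : IrrCharacter G} {θ : IrrCharacter N}
    (h1 : classInner (fun n : N => (χ : G → ℂ) n) (θ : N → ℂ) ≠ 0)
    (h2 : classInner (fun n : N => (ψ : G → ℂ) n) (θ : N → ℂ) ≠ 0) :
    ∃ f : G ⧸ N →* ℂˣ, ∀ g : G, (ψ : G → ℂ) g = (f (g : G ⧸ N) : ℂ) * (χ : G → ℂ) g := by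
  classical
  have hχN : IsCharacter N (fun n : N => (χ : G → ℂ) n) := isCharacter_restrict N (IsIrr.isCharacter χ.2)
  have hψN : IsCharacter N (fun n : N => (ψ : G → ℂ) n) := isCharacter_restrict N (IsIrr.isCharacter ψ.2)
  have h3 : classInner (fun n : N => (ψ : G → ℂ) n) (fun n : N => (χ : G → ℂ) n) ≠ 0 := by
    rw [parseval (IsCharacter.isClassFunction hψN) (IsCharacter.isClassFunction hχN)]
    choose a ha using fun η : IrrCharacter N => IsCharacter.inner_irr_nat hψN η.2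
    choose b hb using fun η : IrrCharacter N => IsCharacter.inner_irr_nat hχN η.2
    have h4 : ∑ η : IrrCharacter N, classInner (fun n : N => (ψ : G → ℂ) n) (η : N → ℂ) *
        conj (classInner (fun n : N => (χ : G → ℂ) n) (η : N → ℂ)) =
        ((∑ η : IrrCharacter N, a η * b η : ℕ) : ℂ) := by
      push_cast
      refine Finset.sum_congr rfl fun η _ => ?_
      rw [ha, hb, Complex.conj_natCast]
    rw [h4]
    rw [ha] at h2
    rw [hb] at h1
    have h5 : a θ ≠ 0 := by exact_mod_cast h2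
    have h6 : b θ ≠ 0 := by exact_mod_cast h1
    have h7 : a θ * b θ ≤ ∑ η : IrrCharacter N, a η * b η :=
      Finset.single_le_sum (f := fun η => a η * b η) (fun _ _ => Nat.zero_le _) (Finset.mem_univ θ)
    have h8 : 0 < a θ * b θ := Nat.mul_pos (Nat.pos_of_ne_zero h5) (Nat.pos_of_ne_zero h6)
    have h9 : (∑ η : IrrCharacter N, a η * b η) ≠ 0 := by omega
    exact_mod_cast h9
  have hF : IsClassFunction G (fun x => (ψ : G → ℂ) x * conj ((χ : G → ℂ) x)) := by
    intro x y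
    simp only [IsIrr.isClassFunction χ.2 x y, IsIrr.isClassFunction ψ.2 x y]
  have h4 : classInner (fun n : N => (ψ : G → ℂ) n * conj ((χ : G → ℂ) n)) (fun _ : N => (1 : ℂ)) ≠ 0 := by
    rw [classInner_def] at h3 ⊢
    simpa using h3
  have h5 := inner_expand N.subtype hF (fun _ : N => (1 : ℂ))
  have h6 : classInner (fun d : N => (fun x => (ψ : G → ℂ) x * conj ((χ : G → ℂ) x)) (N.subtype d))
      (fun _ : N => (1 : ℂ)) ≠ 0 := h4
  rw [h5] at h6
  obtain ⟨β, -, hβ⟩ := Finset.exists_ne_zero_of_sum_ne_zero h6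
  have hβ1 := left_ne_zero_of_mul hβ
  have hβ2 := right_ne_zero_of_mul hβ
  have hβN : ∀ n ∈ N, (β : G → ℂ) n = (β : G → ℂ) 1 := by
    rcases inner_one_restrict N β.2 with ⟨h, -⟩ | h
    · exact h
    · exact absurd h hβ2
  obtain ⟨β', hβ', hβe⟩ := exists_irr_of_ker N β.2 hβN
  have hcomm : ∀ a b : G ⧸ N, a * b = b * a := by
    intro a b
    obtain ⟨a, rfl⟩ := QuotientGroup.mk_surjective a
    obtain ⟨b, rfl⟩ := QuotientGroup.mk_surjective b
    rw [← QuotientGroup.mk_mul, ← QuotientGroup.mk_mul, QuotientGroup.eq]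
    have h7 := hN.conj_mem _ (hab b⁻¹ a⁻¹) 1
    have h8 : (a * b)⁻¹ * (b * a) = 1 * (b⁻¹ * a⁻¹ * b⁻¹⁻¹ * a⁻¹⁻¹) * 1⁻¹ := by group
    rw [h8]
    exact h7
  obtain ⟨f, hf⟩ := IsIrr.linear_of_comm hcomm hβ'
  refine ⟨f, fun g => ?_⟩
  have h7 : IsIrrCharacter G (fun g => ((f.comp (QuotientGroup.mk' N)) g : ℂ) * (χ : G → ℂ) g) :=
    linear_mul_irr _ χ.2
  have h8 : classInner (ψ : G → ℂ)
      (fun g => ((f.comp (QuotientGroup.mk' N)) g : ℂ) * (χ : G → ℂ) g) ≠ 0 := by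
    intro h9
    apply hβ1
    rw [← h9, classInner_def, classInner_def]
    congr 1
    refine Finset.sum_congr rfl fun x _ => ?_
    rw [map_mul, hβe, hf]
    show (ψ : G → ℂ) x * conj ((χ : G → ℂ) x) * conj ((f (x : G ⧸ N) : ℂ)) =
      (ψ : G → ℂ) x * (conj ((f (x : G ⧸ N) : ℂ)) * conj ((χ : G → ℂ) x))
    ring
  rw [classInner_irr ψ.2 h7] at h8
  have h9 : (ψ : G → ℂ) = fun g => ((f.comp (QuotientGroup.mk' N)) g : ℂ) * (χ : G → ℂ) g := by
    by_contra h
    exact h8 (if_neg h)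
  exact congrFun h9 g

/-- the dual group -/
structure Dual (Q : Type*) [Group Q] where
  hom : Q →* ℂˣ

theorem Dual.ext' {Q : Type*} [Group Q] {a b : Dual Q} (h : ∀ q, a.hom q = b.hom q) : a = b := by
  cases a; cases b
  congr 1
  exact MonoidHom.ext h

instance dualGroup (Q : Type*) [Group Q] : CommGroup (Dual Q) where
  mul a b := ⟨a.hom * b.hom⟩
  one := ⟨1⟩
  inv a := ⟨a.hom⁻¹⟩
  mul_assoc a b c := Dual.ext' fun q => mul_assoc _ _ _
  one_mul a := Dual.ext' fun q => one_mul _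
  mul_one a := Dual.ext' fun q => mul_one _
  inv_mul_cancel a := Dual.ext' fun q => inv_mul_cancel _
  mul_comm a b := Dual.ext' fun q => mul_comm _ _

theorem Dual.mul_hom {Q : Type*} [Group Q] (a b : Dual Q) (q : Q) :
    (a * b).hom q = a.hom q * b.hom q := rfl

theorem Dual.one_hom {Q : Type*} [Group Q] (q : Q) : (1 : Dual Q).hom q = 1 := rfl

/-- the dual group and the group of homomorphisms -/
def dualEquiv (Q : Type*) [Group Q] : Dual Q ≃ (Q →* ℂˣ) where
  toFun a := a.hom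
  invFun f := ⟨f⟩
  left_inv _ := rfl
  right_inv _ := rfl

/-- the action on the dual group -/
def dualAct {S Q : Type*} [Group S] [Group Q] (φ : S →* MulAut Q) : S →* MulAut (Dual Q) where
  toFun s :=
    { toFun := fun f => ⟨f.hom.comp (φ s).symm.toMonoidHom⟩
      invFun := fun f => ⟨f.hom.comp (φ s).toMonoidHom⟩
      left_inv := fun f => Dual.ext' fun q => by
        show f.hom ((φ s).symm (φ s q)) = f.hom q
        rw [MulEquiv.symm_apply_apply]
      right_inv := fun f => Dual.ext' fun q => by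
        show f.hom (φ s ((φ s).symm q)) = f.hom q
        rw [MulEquiv.apply_symm_apply]
      map_mul' := fun f g => rfl }
  map_one' := by
    refine MulEquiv.ext fun f => Dual.ext' fun q => ?_
    show f.hom ((φ 1).symm q) = f.hom q
    rw [map_one]; rfl
  map_mul' a b := by
    refine MulEquiv.ext fun f => Dual.ext' fun q => ?_
    show f.hom ((φ (a * b)).symm q) = f.hom ((φ b).symm ((φ a).symm q))
    rw [map_mul]; rfl

theorem dualAct_apply {S Q : Type*} [Group S] [Group Q] (φ : S →* MulAut Q) (s : S)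
    (f : Dual Q) (q : Q) : (dualAct φ s f).hom (φ s q) = f.hom q := by
  show f.hom ((φ s).symm (φ s q)) = f.hom q
  rw [MulEquiv.symm_apply_apply]

/-- multiplication by a linear character -/
def linMul {G : Type*} [Group G] [Finite G] (N : Subgroup G) [N.Normal] (f : Dual (G ⧸ N))
    (χ : IrrCharacter G) : IrrCharacter G :=
  ⟨fun g => ((f.hom.comp (QuotientGroup.mk' N)) g : ℂ) * (χ : G → ℂ) g, linear_mul_irr _ χ.2⟩

theorem linMul_apply {G : Type*} [Group G] [Finite G] (N : Subgroup G) [N.Normal]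
    (f : Dual (G ⧸ N)) (χ : IrrCharacter G) (g : G) :
    (linMul N f χ : G → ℂ) g = (f.hom (g : G ⧸ N) : ℂ) * (χ : G → ℂ) g := rfl

theorem inv_core {S G K : Type*} [Group S] [Finite S] [Group G] [Fintype G] [Group K] [Finite K]
    (φ : S →* MulAut G) (ψ : S →* MulAut K) (m : K → IrrCharacter G → IrrCharacter G)
    (hm1 : ∀ χ, m 1 χ = χ) (hmm : ∀ a b χ, m (a * b) χ = m a (m b χ))
    (hcmp : ∀ (s : S) (k : K) (χ : IrrCharacter G), irrE (φ s) (m k χ) = m (ψ s k) (irrE (φ s) χ))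
    (hcop : (Nat.card S).Coprime (Nat.card K)) (hsolv : Group.IsSolvable S ∨ Group.IsSolvable K)
    {T : Set (IrrCharacter G)} (hne : T.Nonempty)
    (hS : ∀ (s : S), ∀ x ∈ T, irrE (φ s) x ∈ T) (hK : ∀ (k : K), ∀ x ∈ T, m k x ∈ T)
    (htr : ∀ x ∈ T, ∀ y ∈ T, ∃ k : K, m k x = y) : ∃ χ ∈ T, InvF φ (χ : G → ℂ) := by
  letI aS : MulAction S (IrrCharacter G) := MulAction.compHom _ ((irrHom G).comp φ)
  letI aK : MulAction K (IrrCharacter G) :=
    { smul := m
      one_smul := hm1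
      mul_smul := hmm }
  obtain ⟨χ, hχ, hfix⟩ := glauberman_abs (X := IrrCharacter G) ψ hcmp hcop hsolv hne hS hK htr
  exact ⟨χ, hχ, (invF_iff_irrE _ χ).2 fun s => hfix s⟩

theorem card_hom_quot {G : Type*} [Group G] [Finite G] (N : Subgroup G) [hN : N.Normal]
    (hab : ∀ x y : G, x * y * x⁻¹ * y⁻¹ ∈ N) : Nat.card (Dual (G ⧸ N)) = Nat.card (G ⧸ N) := by
  have hcomm : ∀ a b : G ⧸ N, a * b = b * a := by
    intro a b
    obtain ⟨a, rfl⟩ := QuotientGroup.mk_surjective a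
    obtain ⟨b, rfl⟩ := QuotientGroup.mk_surjective b
    rw [← QuotientGroup.mk_mul, ← QuotientGroup.mk_mul, QuotientGroup.eq]
    have h7 := hN.conj_mem _ (hab b⁻¹ a⁻¹) 1
    have h8 : (a * b)⁻¹ * (b * a) = 1 * (b⁻¹ * a⁻¹ * b⁻¹⁻¹ * a⁻¹⁻¹) * 1⁻¹ := by group
    rw [h8]
    exact h7
  rw [Nat.card_congr (dualEquiv (G ⧸ N)), card_hom_units]
  have : commutator (G ⧸ N) = ⊥ := by
    haveI : IsMulCommutative (G ⧸ N) := ⟨⟨hcomm⟩⟩
    exact commutator_eq_bot _
  rw [this, Subgroup.index_bot]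

/-- an invariant character lies under an invariant one, abelian quotient -/
theorem exists_inv_above_ab {S G : Type*} [Group S] [Finite S] [Group G] [Fintype G]
    (φ : S →* MulAut G) (N : Subgroup G) [hN : N.Normal] [Fintype N]
    (h : ∀ s, ∀ n ∈ N, φ s n ∈ N) (hcop : (Nat.card S).Coprime (Nat.card (G ⧸ N)))
    (hab : ∀ x y : G, x * y * x⁻¹ * y⁻¹ ∈ N) (θ : IrrCharacter N)
    (hθ : InvF (resAct φ N h) (θ : N → ℂ)) : ∃ χ : IrrCharacter G,
      classInner (fun n : N => (χ : G → ℂ) n) (θ : N → ℂ) ≠ 0 ∧ InvF φ (χ : G → ℂ) := by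
  classical
  haveI := hom_finite (G ⧸ N)
  haveI : Finite (Dual (G ⧸ N)) := Finite.of_equiv _ (dualEquiv (G ⧸ N)).symm
  obtain ⟨χ, hχ, hfix⟩ := inv_core φ (dualAct (quotAct φ N h)) (linMul N)
    (T := {χ : IrrCharacter G | classInner (fun n : N => (χ : G → ℂ) n) (θ : N → ℂ) ≠ 0})
    (fun χ => Subtype.ext (funext fun g => by
      rw [linMul_apply, Dual.one_hom, Units.val_one, one_mul]))
    (fun a b χ => Subtype.ext (funext fun g => by
      rw [linMul_apply, linMul_apply, linMul_apply, Dual.mul_hom, Units.val_mul, mul_assoc]))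
    (by
      intro s f χ
      apply Subtype.ext
      funext g
      obtain ⟨g, rfl⟩ := (φ s).surjective g
      rw [irrE_apply', linMul_apply, linMul_apply, irrE_apply', ← quotAct_mk φ N h, dualAct_apply])
    (by rw [card_hom_quot N hab]; exact hcop)
    (Or.inr inferInstance)
    (by
      obtain ⟨χ, hχ, h1⟩ := exists_above N θ.2
      exact ⟨⟨χ, hχ⟩, h1⟩)
    (by
      intro s χ hχ
      show classInner (fun n : N => (irrE (φ s) χ : G → ℂ) n) (θ : N → ℂ) ≠ 0
      rw [← classInner_comp_equiv (resAct φ N h s)]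
      have h1 : (fun a : N => (irrE (φ s) χ : G → ℂ) (resAct φ N h s a : N)) =
          fun n : N => (χ : G → ℂ) n := by
        funext n
        exact irrE_apply' (φ s) χ (n : G)
      have h2 : (fun a : N => (θ : N → ℂ) (resAct φ N h s a)) = (θ : N → ℂ) := by
        funext n
        exact hθ s n
      rw [h1, h2]
      exact hχ)
    (by
      intro f χ hχ
      show classInner (fun n : N => (linMul N f χ : G → ℂ) n) (θ : N → ℂ) ≠ 0
      have h1 : (fun n : N => (linMul N f χ : G → ℂ) n) = fun n : N => (χ : G → ℂ) n := by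
        funext n
        rw [linMul_apply, (QuotientGroup.eq_one_iff (n : G)).2 n.2, map_one, Units.val_one, one_mul]
      rw [h1]
      exact hχ)
    (by
      intro χ hχ χ' hχ'
      obtain ⟨f, hf⟩ := exists_linear_of_common N hab hχ hχ'
      exact ⟨⟨f⟩, Subtype.ext (funext fun g => by rw [linMul_apply, hf g])⟩)
  exact ⟨χ, hχ, hfix⟩

variable {Γ : Type*} [Group Γ] [Finite Γ]

theorem exists_inv_above_ab' (G S M : Subgroup Γ) [Fintype G] [Fintype M]
    (hnorm : ∀ s ∈ S, ∀ g ∈ G, s * g * s⁻¹ ∈ G) (hMG : M ≤ G)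
    (hMn : (M.subgroupOf G).Normal) (hMS : ∀ s ∈ S, ∀ n ∈ M, s * n * s⁻¹ ∈ M)
    (hcop : (M.relIndex G).Coprime (Nat.card S)) (hab : ∀ x ∈ G, ∀ y ∈ G, x * y * x⁻¹ * y⁻¹ ∈ M)
    (θ : IrrCharacter M) (hinv : InvF (conjS M S hMS) (θ : M → ℂ)) : ∃ χ : IrrCharacter G,
      classInner (fun n : M => (χ : G → ℂ) ⟨n, hMG n.2⟩) (θ : M → ℂ) ≠ 0 ∧
      InvF (conjS G S hnorm) (χ : G → ℂ) := by
  classical
  haveI := hMn
  haveI : Fintype (M.subgroupOf G) := Fintype.ofFinite _
  have h : ∀ (s : S), ∀ n ∈ M.subgroupOf G, conjS G S hnorm s n ∈ M.subgroupOf G :=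
    fun s n hn => hMS s s.2 n hn
  let e := Subgroup.subgroupOfEquivOfLe hMG
  obtain ⟨χ, h1, h2⟩ := exists_inv_above_ab (conjS G S hnorm) (M.subgroupOf G) h
    hcop.symm (fun x y => hab x x.2 y y.2) (irrE e.symm θ) (by
      intro s n
      rw [irrE_apply, irrE_apply]
      exact hinv s (e n))
  refine ⟨χ, ?_, h2⟩
  rw [← classInner_comp_equiv e]
  have h3 : (fun a : M.subgroupOf G => (θ : M → ℂ) (e a)) = (irrE e.symm θ : M.subgroupOf G → ℂ) := by
    funext a
    rw [irrE_apply]; rfl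
  rw [h3]
  exact h1

theorem exists_inv_above_solv (G S N : Subgroup Γ) [Fintype N]
    (hnorm : ∀ s ∈ S, ∀ g ∈ G, s * g * s⁻¹ ∈ G) (hNG : N ≤ G)
    [hNn : (N.subgroupOf G).Normal] (hNS : ∀ s ∈ S, ∀ n ∈ N, s * n * s⁻¹ ∈ N)
    (hcop : (N.relIndex G).Coprime (Nat.card S))
    (hsolv : Group.IsSolvable (G ⧸ N.subgroupOf G))
    (θ : IrrCharacter N) (hinv : InvF (conjS N S hNS) (θ : N → ℂ)) :
    ∃ χ : IrrCharacter G,
      classInner (fun n : N => (χ : G → ℂ) ⟨n, hNG n.2⟩) (θ : N → ℂ) ≠ 0 ∧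
      InvF (conjS G S hnorm) (χ : G → ℂ) := by
  classical
  obtain ⟨k, hk⟩ := hsolv.solvable
  set Q := G ⧸ N.subgroupOf G with hQ
  let D : ℕ → Subgroup Γ := fun i =>
    ((derivedSeries Q i).comap (QuotientGroup.mk' (N.subgroupOf G))).map G.subtype
  have hD : ∀ i x, x ∈ D i ↔ ∃ h : x ∈ G, ((⟨x, h⟩ : G) : Q) ∈ derivedSeries Q i := by
    intro i x
    constructor
    · rintro ⟨y, hy, rfl⟩
      exact ⟨y.2, hy⟩
    · rintro ⟨h, hx⟩
      exact ⟨⟨x, h⟩, hx, rfl⟩
  have hDG : ∀ i, D i ≤ G := fun i x hx => ((hD i x).1 hx).1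
  have hND : ∀ i, N ≤ D i := fun i x hx => (hD i x).2 ⟨hNG hx, by
    rw [(QuotientGroup.eq_one_iff (⟨x, hNG hx⟩ : G)).2 hx]
    exact one_mem _⟩
  have hDD : ∀ i, D (i + 1) ≤ D i := fun i x hx => by
    obtain ⟨h, hx⟩ := (hD _ x).1 hx
    exact (hD i x).2 ⟨h, derivedSeries_antitone Q (Nat.le_succ i) hx⟩
  have hDk : D k = N := by
    apply le_antisymm _ (hND k)
    intro x hx
    obtain ⟨h, hx⟩ := (hD _ x).1 hx
    rw [hk, Subgroup.mem_bot] at hx
    exact (QuotientGroup.eq_one_iff (⟨x, h⟩ : G)).1 hx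
  have hD0 : D 0 = G := by
    apply le_antisymm (hDG 0)
    intro x hx
    exact (hD 0 x).2 ⟨hx, by rw [derivedSeries_zero]; trivial⟩
  have hDn : ∀ i, ∀ g ∈ G, ∀ x ∈ D i, g * x * g⁻¹ ∈ D i := by
    intro i g hg x hx
    obtain ⟨h, hx⟩ := (hD _ x).1 hx
    refine (hD _ _).2 ⟨G.mul_mem (G.mul_mem hg h) (G.inv_mem hg), ?_⟩
    exact (derivedSeries_normal Q i).conj_mem _ hx ((⟨g, hg⟩ : G) : Q)
  have hqa : ∀ (s : S), ∀ n ∈ N.subgroupOf G, conjS G S hnorm s n ∈ N.subgroupOf G :=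
    fun s n hn => hNS s s.2 n hn
  have hDS : ∀ i, ∀ s ∈ S, ∀ x ∈ D i, s * x * s⁻¹ ∈ D i := by
    intro i s hs x hx
    obtain ⟨h, hx⟩ := (hD _ x).1 hx
    refine (hD _ _).2 ⟨hnorm s hs x h, ?_⟩
    have h1 := (derivedSeries_characteristic Q i).fixed
      (quotAct (conjS G S hnorm) (N.subgroupOf G) hqa ⟨s, hs⟩)
    rw [← h1] at hx
    exact hx
  have hDab : ∀ i, ∀ x ∈ D i, ∀ y ∈ D i, x * y * x⁻¹ * y⁻¹ ∈ D (i + 1) := by
    intro i x hx y hy
    obtain ⟨h, hx⟩ := (hD _ x).1 hx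
    obtain ⟨h', hy⟩ := (hD _ y).1 hy
    refine (hD _ _).2 ⟨G.mul_mem (G.mul_mem (G.mul_mem h h') (G.inv_mem h)) (G.inv_mem h'), ?_⟩
    rw [derivedSeries_succ]
    exact Subgroup.commutator_mem_commutator hx hy
  have hidx : ∀ i, ((D (i + 1)).relIndex (D i)).Coprime (Nat.card S) := by
    intro i
    refine Nat.Coprime.coprime_dvd_left ?_ hcop
    have h1 := Subgroup.relIndex_mul_relIndex (H := N) (K := D (i + 1)) (L := D i) (hND _) (hDD i)
    have h2 := Subgroup.relIndex_mul_relIndex (H := N) (K := D i) (L := G) (hND _) (hDG i)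
    rw [← h2, ← h1]
    exact Dvd.dvd.mul_right (Dvd.intro_left _ rfl) _
  have hfin : ∀ i, Fintype (D i) := fun i => Fintype.ofFinite _
  have hDi : ∀ i, ∀ j, j ≤ k → i + j = k → ∃ χ : IrrCharacter (D i),
      classInner (fun n : N => (χ : D i → ℂ) ⟨n, hND i n.2⟩) (θ : N → ℂ) ≠ 0 ∧
      InvF (conjS (D i) S (hDS i)) (χ : D i → ℂ) := by
    intro i j
    induction j generalizing i with
    | zero =>
      intro _ hi
      rw [add_zero] at hi
      subst hi
      let e : N ≃* D i := MulEquiv.subgroupCongr hDk.symm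
      refine ⟨irrE e θ, ?_, ?_⟩
      · have h1 : (fun n : N => (irrE e θ : D i → ℂ) ⟨n, hND i n.2⟩) = (θ : N → ℂ) := by
          funext n
          exact irrE_apply' e θ n
        rw [h1, classInner_irr_self θ.2]
        exact one_ne_zero
      · intro s x
        obtain ⟨n, rfl⟩ := e.surjective x
        have h1 : conjS (D i) S (hDS i) s (e n) = e (conjS N S hNS s n) := Subtype.ext rfl
        rw [h1, irrE_apply', irrE_apply', hinv s n]
    | succ j ih =>
      intro hj hi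
      obtain ⟨ψ, h1, h2⟩ := ih (i + 1) (by omega) (by omega)
      haveI := hfin i
      haveI := hfin (i + 1)
      obtain ⟨χ, h3, h4⟩ := exists_inv_above_ab' (D i) S (D (i + 1)) (hDS i) (hDD i) (by
        constructor
        intro n hn g
        exact hDn (i + 1) g (hDG i g.2) n hn) (hDS (i + 1)) (hidx i) (hDab i) ψ h2
      refine ⟨χ, ?_, h4⟩
      exact restrict_trans (Subgroup.inclusion (hND (i + 1)))
        (isCharacter_comp (Subgroup.inclusion (hDD i)) (IsIrr.isCharacter χ.2)) ψ.2 h3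
        (IsIrr.isCharacter θ.2) h1
  obtain ⟨χ, h1, h2⟩ := hDi 0 k le_rfl (Nat.zero_add k)
  let e : D 0 ≃* G := MulEquiv.subgroupCongr hD0
  refine ⟨irrE e χ, ?_, ?_⟩
  · have h3 : (fun n : N => (irrE e χ : G → ℂ) ⟨n, hNG n.2⟩) =
        (fun n : N => (χ : D 0 → ℂ) ⟨n, hND 0 n.2⟩) := by
      funext n
      exact irrE_apply' e χ ⟨n, hND 0 n.2⟩
    rw [h3]
    exact h1
  · intro s x
    obtain ⟨n, rfl⟩ := e.surjective x
    have h3 : conjS G S hnorm s (e n) = e (conjS (D 0) S (hDS 0) s n) := Subtype.ext rfl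
    rw [h3, irrE_apply', irrE_apply', h2 s n]

end Above

end CfsgH4
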