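import Cfsg.Agent.H4.Ker
import Cfsg.Agent.H5.Reg
import Cfsg.Agent.H5.Misc4
import Cfsg.Agent.H4.Extend
import Cfsg.Agent.H4.Glb10

/-!
# Blocks with a central defect group
-/

set_option autoImplicit false

open Cfsg MonoidAlgebra
open CfsgH4 hiding centralChar sum_conj regInner_symm
open CfsgH5 ComplexConjugate

namespace CfsgH4

section Cen

variable {C : Type*} [Group C] [Fintype C] {p : ℕ} [hp : Fact p.Prime] {M : Ideal AlgInt}

theorem cj_eq_of_central {D : Subgroup C} (hDc : D ≤ Subgroup.center C) (x : C) : cj x D = D := by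
  ext g
  rw [mem_cj]
  constructor
  · intro h
    have h1 := Subgroup.mem_center_iff.1 (hDc h) x
    have h2 : g = x⁻¹ * g * x := by
      calc g = x * (x⁻¹ * g * x) * x⁻¹ := by group
        _ = x⁻¹ * g * x * x * x⁻¹ := by rw [h1]
        _ = _ := by group
    rw [h2]; exact h
  · intro h
    have h1 := Subgroup.mem_center_iff.1 (hDc h) x⁻¹
    rw [h1]
    simpa using h

theorem cen_vanish (hM : IsPModular p M) {b : Set (IrrCharacter C)} (hb : IsPBlock M b) {D : Subgroup C}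
    (hDc : D ≤ Subgroup.center C) (hD : IsDefectGroup p M b D) {ψ : IrrCharacter C} (hψ : ψ ∈ b) {g x : C}
    (hx : IsPPart p g x) (hxD : x ∉ D) : (ψ : C → ℂ) g = 0 := by
  refine char_vanish hM hb hψ hx fun D' hD' => ?_
  obtain ⟨y, hy⟩ := defect_conj hM hb hD hD'
  have h1 : D' = D := by
    have h2 : cj y⁻¹ (cj y D') = cj y⁻¹ D := by rw [hy]
    rw [cj_cj, inv_mul_cancel, cj_one, cj_eq_of_central hDc] at h2
    exact h2
  rw [h1]; exact hxD

open Classical in
/-- sums of functions supported on `D × C_{p'}` -/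
theorem cen_sum {D : Subgroup C} (hDc : D ≤ Subgroup.center C) (hDp : IsPGroup p D) {F : C → ℂ}
    (hF : ∀ g x : C, IsPPart p g x → x ∉ D → F g = 0) :
    ∑ g : C, F g = ∑ u : D, ∑ s : C, if p ∣ orderOf s then 0 else F (u * s) := by
  have hpp : ∀ (u : D) (s : C), ¬ p ∣ orderOf s → IsPPart p ((u : C) * s) u := by
    intro u s hs
    refine ⟨s, rfl, (Subgroup.mem_center_iff.1 (hDc u.2) s).symm, ?_, hs⟩
    obtain ⟨k, hk⟩ := IsPGroup.iff_orderOf.1 hDp u
    exact ⟨k, by rw [← hk, Subgroup.orderOf_coe]⟩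
  have h1 : ∀ g : C, F g = ∑ u : D, if IsPPart p g (u : C) then F g else 0 := by
    intro g
    obtain ⟨x, hx⟩ := exists_ppart (p := p) g
    by_cases hxD : x ∈ D
    · rw [Finset.sum_eq_single ⟨x, hxD⟩]
      · rw [if_pos hx]
      · intro u _ hne
        rw [if_neg]
        intro h
        exact hne (Subtype.ext (ppart_unique h hx))
      · exact fun h => absurd (Finset.mem_univ _) h
    · rw [hF g x hx hxD]
      simp
  rw [Finset.sum_congr rfl fun g _ => h1 g, Finset.sum_comm]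
  refine Finset.sum_congr rfl fun u _ => ?_
  symm
  refine Fintype.sum_equiv (Equiv.mulLeft (u : C)) _ _ fun s => ?_
  show _ = if IsPPart p ((u : C) * s) (u : C) then F ((u : C) * s) else 0
  by_cases hs : p ∣ orderOf s
  · rw [if_pos hs, if_neg]
    rintro ⟨y, hy, -, -, h⟩
    apply h
    rw [mul_left_cancel hy]
    exact hs
  · rw [if_neg hs, if_pos (hpp u s hs)]

open Classical in
/-- orthogonality for characters in a block with central defect group -/
theorem cen_orth (hM : IsPModular p M) {b : Set (IrrCharacter C)} (hb : IsPBlock M b) {D : Subgroup C}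
    (hDc : D ≤ Subgroup.center C) (hD : IsDefectGroup p M b D) {ψ ψ' : IrrCharacter C} (hψ : ψ ∈ b)
    {f f' : D →* ℂˣ} (hf : ∀ (u : D) (g : C), (ψ : C → ℂ) (u * g) = f u * (ψ : C → ℂ) g)
    (hf' : ∀ (u : D) (g : C), (ψ' : C → ℂ) (u * g) = f' u * (ψ' : C → ℂ) g) :
    (Nat.card C : ℂ) * classInner (ψ : C → ℂ) (ψ' : C → ℂ) =
      (∑ u : D, (f u : ℂ) * conj (f' u : ℂ)) * regInner p (ψ : C → ℂ) (ψ' : C → ℂ) := by
  classical
  rw [classInner, ← mul_assoc, mul_inv_cancel₀ (card_ne_zero C), one_mul]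
  rw [cen_sum hDc (CfsgH5.IsDefectGroup.isPGroup hD) (F := fun g => (ψ : C → ℂ) g * conj ((ψ' : C → ℂ) g))
    (fun g x hx hxD => by rw [cen_vanish hM hb hDc hD hψ hx hxD, zero_mul]), regInner, Finset.sum_mul]
  refine Finset.sum_congr rfl fun u _ => ?_
  rw [Finset.mul_sum]
  refine Finset.sum_congr rfl fun s _ => ?_
  split_ifs
  · rw [mul_zero]
  · rw [hf, hf', map_mul]; ring

theorem central_lin {D : Subgroup C} (hDc : D ≤ Subgroup.center C) (ψ : IrrCharacter C) :
    ∃ f : D →* ℂˣ, ∀ (u : D) (g : C), (ψ : C → ℂ) (u * g) = f u * (ψ : C → ℂ) g := by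
  obtain ⟨f, hf⟩ := exists_central_char ψ.2 D hDc
  refine ⟨f, fun u g => ?_⟩
  rw [← hf u g, Subgroup.mem_center_iff.1 (hDc u.2) g]

open Classical in
theorem central_sum {D : Subgroup C} (f : D →* ℂˣ) : ∑ u : D, (f u : ℂ) * conj (f u : ℂ) = Nat.card D := by
  have h1 : ∀ u : D, (f u : ℂ) * conj (f u : ℂ) = 1 := by
    intro u
    rw [Complex.mul_conj, Complex.normSq_eq_norm_sq, norm_unit_of_finite]
    norm_num
  rw [Finset.sum_congr rfl fun u _ => h1 u, Finset.sum_const, Finset.card_univ, nsmul_eq_mul, mul_one,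
    Nat.card_eq_fintype_card]

/-- main structure theorem for blocks with central defect groups -/
theorem cen_struct (hM : IsPModular p M) {b : Set (IrrCharacter C)} (hb : IsPBlock M b) {D : Subgroup C}
    (hDc : D ≤ Subgroup.center C) (hD : IsDefectGroup p M b D) :
    ∃ θ ∈ b, (∀ (u : D) (g : C), (θ : C → ℂ) (u * g) = (θ : C → ℂ) g) ∧
      (∀ ψ ∈ b, ∀ s : C, ¬ p ∣ orderOf s → (ψ : C → ℂ) s = (θ : C → ℂ) s) ∧
      (∀ f : D →* ℂˣ, ∃! ψ, ψ ∈ b ∧ ∀ (u : D) (g : C), (ψ : C → ℂ) (u * g) = f u * (ψ : C → ℂ) g) ∧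
      blockRank p b = 1 ∧ Nat.card b = Nat.card D ∧
      (Nat.card D : ℂ) * regInner p (θ : C → ℂ) (θ : C → ℂ) = Nat.card C := by
  classical
  haveI := IsPModular.isPrime hM
  have hDp : IsPGroup p D := CfsgH5.IsDefectGroup.isPGroup hD
  have hcC := card_ne_zero C
  have hcD : (Nat.card D : ℂ) ≠ 0 := by exact_mod_cast Nat.card_pos.ne'
  -- orthogonality
  have horth : ∀ ψ ∈ b, ∀ (ψ' : IrrCharacter C) (f : D →* ℂˣ),
      (∀ (u : D) (g : C), (ψ : C → ℂ) (u * g) = f u * (ψ : C → ℂ) g) →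
      (∀ (u : D) (g : C), (ψ' : C → ℂ) (u * g) = f u * (ψ' : C → ℂ) g) →
      (Nat.card D : ℂ) * regInner p (ψ : C → ℂ) (ψ' : C → ℂ) = if ψ = ψ' then (Nat.card C : ℂ) else 0 := by
    intro ψ hψ ψ' f h h'
    have h1 := cen_orth hM hb hDc hD hψ h h'
    rw [central_sum, classInner_irr'] at h1
    rw [← h1]
    split_ifs <;> simp
  have hself : ∀ ψ ∈ b, (Nat.card D : ℂ) * regInner p (ψ : C → ℂ) (ψ : C → ℂ) = (Nat.card C : ℂ) := by
    intro ψ hψ
    obtain ⟨f, hf⟩ := central_lin hDc ψ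
    rw [horth ψ hψ ψ f hf hf, if_pos rfl]
  have hker : ∀ χ : IrrCharacter C, (∀ x ∈ D, (χ : C → ℂ) x = (χ : C → ℂ) 1) →
      ∀ (u : D) (g : C), (χ : C → ℂ) (u * g) = ((1 : D →* ℂˣ) u : ℂ) * (χ : C → ℂ) g := by
    intro χ hχ u g
    have h1 := irr_central_mul χ.2 (hDc u.2) g
    rw [hχ u u.2] at h1
    have h2 := IsIrr.one_ne_zero χ.2
    rw [MonoidHom.one_apply, Units.val_one, one_mul]
    exact (mul_left_cancel₀ h2 h1).symm
  -- every member agrees with a member trivial on `D`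
  have hex : ∀ ξ ∈ b, ∃ θ ∈ b, (∀ x ∈ D, (θ : C → ℂ) x = (θ : C → ℂ) 1) ∧
      ∀ s : C, ¬ p ∣ orderOf s → (ξ : C → ℂ) s = (θ : C → ℂ) s := by
    intro ξ hξ
    obtain ⟨c, hc1, hc2⟩ := reg_expand hM hDc hDp hb hξ
    have h1 : regInner p (ξ : C → ℂ) (ξ : C → ℂ) = ∑ χ : IrrCharacter C, ∑ χ' : IrrCharacter C,
        (c χ : ℂ) * (c χ' : ℂ) * regInner p (χ : C → ℂ) (χ' : C → ℂ) := by
      rw [regInner]
      have h2 : ∀ x : C, (if p ∣ orderOf x then 0 else (ξ : C → ℂ) x * conj ((ξ : C → ℂ) x)) =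
          ∑ χ : IrrCharacter C, ∑ χ' : IrrCharacter C, (c χ : ℂ) * (c χ' : ℂ) *
            (if p ∣ orderOf x then 0 else (χ : C → ℂ) x * conj ((χ' : C → ℂ) x)) := by
        intro x
        split_ifs with hx
        · simp
        · rw [hc2 x hx, map_sum, Finset.sum_mul_sum]
          refine Finset.sum_congr rfl fun χ _ => Finset.sum_congr rfl fun χ' _ => ?_
          rw [map_mul, map_intCast]; ring
      rw [Finset.sum_congr rfl fun x _ => h2 x, Finset.sum_comm]
      refine Finset.sum_congr rfl fun χ _ => ?_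
      rw [Finset.sum_comm]
      refine Finset.sum_congr rfl fun χ' _ => ?_
      rw [regInner, Finset.mul_sum]
    have h3 : (Nat.card D : ℂ) * regInner p (ξ : C → ℂ) (ξ : C → ℂ) =
        (Nat.card C : ℂ) * ∑ χ : IrrCharacter C, (c χ : ℂ) ^ 2 := by
      rw [h1, Finset.mul_sum, Finset.mul_sum]
      refine Finset.sum_congr rfl fun χ _ => ?_
      rw [Finset.mul_sum]
      by_cases hcχ : c χ = 0
      · simp [hcχ]
      · rw [Finset.sum_eq_single χ]
        · have := horth χ (hc1 χ hcχ).1 χ 1 (hker χ (hc1 χ hcχ).2) (hker χ (hc1 χ hcχ).2)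
          rw [if_pos rfl] at this
          linear_combination ((c χ : ℂ) * (c χ : ℂ)) * this
        · intro χ' _ hne
          by_cases hcχ' : c χ' = 0
          · simp [hcχ']
          · have := horth χ (hc1 χ hcχ).1 χ' 1 (hker χ (hc1 χ hcχ).2) (hker χ' (hc1 χ' hcχ').2)
            rw [if_neg hne.symm] at this
            linear_combination ((c χ : ℂ) * (c χ' : ℂ)) * this
        · exact fun h => absurd (Finset.mem_univ χ) h
    rw [hself ξ hξ] at h3
    have h4 : ∑ χ : IrrCharacter C, (c χ : ℂ) ^ 2 = 1 := by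
      have : (Nat.card C : ℂ) * 1 = (Nat.card C : ℂ) * ∑ χ : IrrCharacter C, (c χ : ℂ) ^ 2 := by rw [mul_one]; exact h3
      exact (mul_left_cancel₀ hcC this).symm
    have h5 : ∑ χ : IrrCharacter C, (c χ) ^ 2 = 1 := by exact_mod_cast h4
    obtain ⟨θ, hθ0⟩ : ∃ θ, c θ ≠ 0 := by
      by_contra hcon
      push Not at hcon
      rw [Finset.sum_congr rfl fun χ _ => by rw [hcon χ]] at h5
      simp at h5
    have h6 : c θ ^ 2 + ∑ χ ∈ Finset.univ.erase θ, (c χ) ^ 2 = 1 := by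
      have := Finset.add_sum_erase Finset.univ (fun χ => c χ ^ 2) (Finset.mem_univ θ)
      rw [h5] at this
      exact this
    have h7 : 0 ≤ ∑ χ ∈ Finset.univ.erase θ, (c χ) ^ 2 := Finset.sum_nonneg fun _ _ => sq_nonneg _
    have h8 : 0 < c θ ^ 2 := by positivity
    have h9 : ∑ χ ∈ Finset.univ.erase θ, (c χ) ^ 2 = 0 := by omega
    have h10 : ∀ χ, χ ≠ θ → c χ = 0 := by
      intro χ hχ
      have := (Finset.sum_eq_zero_iff_of_nonneg (fun i _ => sq_nonneg (c i))).1 h9 χ (by simp [hχ])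
      exact pow_eq_zero_iff (two_ne_zero) |>.1 this
    have h11 : ∀ s : C, ¬ p ∣ orderOf s → (ξ : C → ℂ) s = (c θ : ℂ) * (θ : C → ℂ) s := by
      intro s hs
      rw [hc2 s hs, Finset.sum_eq_single θ]
      · intro χ _ hχ; rw [h10 χ hχ]; simp
      · exact fun h => absurd (Finset.mem_univ θ) h
    have h12 : c θ = 1 := by
      have h13 := h11 1 (by rw [orderOf_one]; exact hp.out.one_lt.ne' ∘ Nat.dvd_one.1)
      rw [deg_eq, deg_eq] at h13
      have h14 : ((charDegree (ξ : C → ℂ) : ℤ)) = c θ * charDegree (θ : C → ℂ) := by exact_mod_cast h13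
      have h15 : 0 < (charDegree (ξ : C → ℂ) : ℤ) := by exact_mod_cast deg_pos ξ
      have h16 : 0 < (charDegree (θ : C → ℂ) : ℤ) := by exact_mod_cast deg_pos θ
      have h17 : 0 < c θ := by
        by_contra hcon
        push Not at hcon
        nlinarith
      have h18 : c θ ^ 2 = 1 := by omega
      nlinarith
    refine ⟨θ, (hc1 θ hθ0).1, (hc1 θ hθ0).2, fun s hs => ?_⟩
    rw [h11 s hs, h12]; simp
  obtain ⟨χ₀, hχ₀, hχ₀h⟩ := exists_height_zero p (B := b) (IsPBlock.nonempty hb)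
  obtain ⟨θ, hθb, hθD, hθ⟩ := hex χ₀ hχ₀
  have hreg : ∀ {α β α' β' : IrrCharacter C}, (∀ s : C, ¬ p ∣ orderOf s → (α : C → ℂ) s = (α' : C → ℂ) s) →
      (∀ s : C, ¬ p ∣ orderOf s → (β : C → ℂ) s = (β' : C → ℂ) s) →
      regInner p (α : C → ℂ) (β : C → ℂ) = regInner p (α' : C → ℂ) (β' : C → ℂ) := by
    intro α β α' β' h h'
    rw [regInner, regInner]
    refine Finset.sum_congr rfl fun s _ => ?_
    split_ifs with hs
    · rfl
    · rw [h s hs, h' s hs]
  have hall : ∀ ψ ∈ b, ∀ s : C, ¬ p ∣ orderOf s → (ψ : C → ℂ) s = (θ : C → ℂ) s := by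
    intro ψ hψ
    obtain ⟨θ', hθ'b, hθ'D, hθ'⟩ := hex ψ hψ
    obtain ⟨A, hA, -, -, -, -, -, -, -, -, hA0⟩ := contr hM hb hχ₀
    have h1 := hA0 hχ₀h ψ hψ
    have h2 : regInner p (χ₀ : C → ℂ) (ψ : C → ℂ) ≠ 0 := by
      intro h3
      have h4 := hA ψ
      rw [h3, mul_zero] at h4
      rcases mul_eq_zero.1 h4.symm with h5 | h5
      · exact hcC h5
      · exact h1 (by exact_mod_cast h5)
    rw [hreg hθ hθ'] at h2
    have h3 := horth θ hθb θ' 1 (hker θ hθD) (hker θ' hθ'D)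
    by_cases h4 : θ = θ'
    · rw [h4]; exact hθ'
    · rw [if_neg h4] at h3
      rcases mul_eq_zero.1 h3 with h5 | h5
      · exact absurd h5 hcD
      · exact absurd h5 h2
  have hθθ := hself θ hθb
  have hrk : blockRank p b = 1 := by
    refine rank_one_of hθb fun χ hχ => ⟨1, ?_⟩
    rw [one_smul]
    funext g
    by_cases hg : p ∣ orderOf g
    · rw [rho_sing hg, rho_sing hg]
    · rw [rho_reg hg, rho_reg hg, hall χ hχ g hg]
  have hcard : Nat.card b = Nat.card D := by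
    have h1 := card_mul_blockRank hM hb
    rw [hrk, Nat.cast_one, mul_one] at h1
    have h2 : ∀ χ : IrrCharacter C, (if χ ∈ b then regInner p (χ : C → ℂ) (χ : C → ℂ) else 0) =
        if χ ∈ b then regInner p (θ : C → ℂ) (θ : C → ℂ) else 0 := by
      intro χ
      split_ifs with h
      · exact hreg (hall χ h) (hall χ h)
      · rfl
    rw [Finset.sum_congr rfl fun χ _ => h2 χ, ← Finset.sum_filter, Finset.sum_const, nsmul_eq_mul] at h1
    have h3 : ((Finset.univ.filter (fun χ : IrrCharacter C => χ ∈ b)).card : ℂ) = (Nat.card b : ℂ) := by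
      rw [Nat.card_eq_fintype_card, Fintype.card_subtype]
    rw [h3] at h1
    have h4 : (Nat.card D : ℂ) * (Nat.card C : ℂ) = (Nat.card b : ℂ) * (Nat.card C : ℂ) := by
      linear_combination (Nat.card D : ℂ) * h1 + (Nat.card b : ℂ) * hθθ
    have h5 := mul_right_cancel₀ hcC h4
    exact_mod_cast h5.symm
  refine ⟨θ, hθb, fun u g => ?_, hall, ?_, hrk, hcard, hθθ⟩
  · rw [hker θ hθD u g]; simp
  · -- bijection with the characters of `D`
    choose f hf using fun ψ : IrrCharacter C => central_lin hDc ψ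
    have hinj : ∀ ψ ∈ b, ∀ ψ' ∈ b, ∀ g : D →* ℂˣ,
        (∀ (u : D) (x : C), (ψ : C → ℂ) (u * x) = g u * (ψ : C → ℂ) x) →
        (∀ (u : D) (x : C), (ψ' : C → ℂ) (u * x) = g u * (ψ' : C → ℂ) x) → ψ = ψ' := by
      intro ψ hψ ψ' hψ' g h h'
      by_contra hne
      have h1 := horth ψ hψ ψ' g h h'
      rw [if_neg hne, hreg (hall ψ hψ) (hall ψ' hψ'), hθθ] at h1
      exact hcC h1
    let F : b → (D →* ℂˣ) := fun ψ => f ψ.1
    have hF : Function.Injective F := by
      intro ψ ψ' h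
      have h' : f ψ.1 = f ψ'.1 := h
      exact Subtype.ext (hinj ψ.1 ψ.2 ψ'.1 ψ'.2 (f ψ.1) (hf ψ.1) (by rw [h']; exact hf ψ'.1))
    haveI : Finite (D →* ℂˣ) := hom_finite D
    have hcomm : Nat.card (D →* ℂˣ) = Nat.card D := by
      rw [card_hom_units]
      have h1 : commutator D = ⊥ := by
        rw [eq_bot_iff, commutator_def, Subgroup.commutator_le]
        intro x _ y _
        rw [Subgroup.mem_bot, commutatorElement_eq_one_iff_mul_comm]
        exact Subtype.ext (Subgroup.mem_center_iff.1 (hDc y.2) (x : C))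
      rw [h1, Subgroup.index_bot]
    have hbij : Function.Bijective F := by
      haveI := Fintype.ofFinite (D →* ℂˣ)
      rw [Fintype.bijective_iff_injective_and_card]
      refine ⟨hF, ?_⟩
      rw [← Nat.card_eq_fintype_card, ← Nat.card_eq_fintype_card, hcard, hcomm]
    intro g
    obtain ⟨ψ, hψ⟩ := hbij.2 g
    have hψ' : f ψ.1 = g := hψ
    refine ⟨ψ.1, ⟨ψ.2, by rw [← hψ']; exact hf ψ.1⟩, ?_⟩
    rintro ψ' ⟨h1, h2⟩
    exact hinj ψ' h1 ψ.1 ψ.2 g h2 (by rw [← hψ']; exact hf ψ.1)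

end Cen

end CfsgH4
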