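import Cfsg.Agent.H4.Do8
import Cfsg.Agent.H4.FR

set_option autoImplicit false
set_option linter.all false

/-! # Isomorphic principal blocks: class sums of a normal subgroup -/

open Cfsg MonoidAlgebra
open CfsgH4 hiding centralChar sum_conj regInner_symm
open CfsgH5 hiding ev_ca
open ComplexConjugate

namespace CfsgIso

section Basic

variable {G : Type*} [Group G] [Fintype G] {M : Ideal AlgInt} [hMp : M.IsPrime] {N : Subgroup G} [hN : N.Normal]

/-- the augmentation -/
noncomputable def ag (z : MonoidAlgebra ℂ G) : ℂ := ∑ g : G, z.coeff g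

theorem ag_add (z w : MonoidAlgebra ℂ G) : ag (z + w) = ag z + ag w := by
  rw [ag, ag, ag, ← Finset.sum_add_distrib]; rfl

theorem ag_mul (z w : MonoidAlgebra ℂ G) : ag (z * w) = ag z * ag w := by
  rw [ag, ag, ag]
  have h1 : ∀ g : G, (z * w).coeff g = ∑ x : G, z.coeff x * w.coeff (x⁻¹ * g) := fun g => coeff_mul_left z w g
  rw [Finset.sum_congr rfl fun g _ => h1 g, Finset.sum_comm, Finset.sum_mul]
  refine Finset.sum_congr rfl fun x _ => ?_
  rw [← Finset.mul_sum]
  congr 1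
  exact Equiv.sum_comp (Equiv.mulLeft x⁻¹) (fun g => w.coeff g)

/-- supported on the coset of `x` -/
def Sc (N : Subgroup G) [N.Normal] (q : G ⧸ N) (z : MonoidAlgebra ℂ G) : Prop := ∀ g : G, (g : G ⧸ N) ≠ q → z.coeff g = 0

theorem Sc.mul {q r : G ⧸ N} {z w : MonoidAlgebra ℂ G} (hz : Sc N q z) (hw : Sc N r w) : Sc N (q * r) (z * w) := by
  intro g hg
  rw [coeff_mul_left]
  refine Finset.sum_eq_zero fun x _ => ?_
  by_cases hx : (x : G ⧸ N) = q
  · have : ((x⁻¹ * g : G) : G ⧸ N) ≠ r := by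
      intro h
      apply hg
      rw [← hx, ← h, ← QuotientGroup.mk_mul, mul_inv_cancel_left]
    rw [hw _ this, mul_zero]
  · rw [hz x hx, zero_mul]

theorem Sc.sup {z : MonoidAlgebra ℂ G} (hz : Sc N 1 z) : Sup N z := by
  intro g hg
  apply hz
  intro h
  exact hg ((QuotientGroup.eq_one_iff g).1 h)

open Classical in
/-- the coset component -/
noncomputable def cc (N : Subgroup G) [N.Normal] (q : G ⧸ N) (z : MonoidAlgebra ℂ G) : MonoidAlgebra ℂ G :=
  mkA fun g => if (g : G ⧸ N) = q then z.coeff g else 0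

theorem sc_cc (q : G ⧸ N) (z : MonoidAlgebra ℂ G) : Sc N q (cc N q z) := by
  intro g hg
  rw [cc, coeff_mkA, if_neg hg]

theorem fx_cc (q : G ⧸ N) {z : MonoidAlgebra ℂ G} (hz : Fx N z) : Fx N (cc N q z) := by
  classical
  intro x hx g
  rw [cc, coeff_mkA, coeff_mkA, hz x hx g]
  have : ((x * g * x⁻¹ : G) : G ⧸ N) = (g : G ⧸ N) := by
    rw [QuotientGroup.mk_mul, QuotientGroup.mk_mul, (QuotientGroup.eq_one_iff x).2 hx, one_mul,
      QuotientGroup.mk_inv, (QuotientGroup.eq_one_iff x).2 hx, inv_one, mul_one]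
  rw [this]

theorem inS_cc (q : G ⧸ N) {z : MonoidAlgebra ℂ G} (hz : InS M z) : InS M (cc N q z) := by
  classical
  intro g
  rw [cc, coeff_mkA]
  split_ifs
  · exact hz g
  · exact memLocalRing_zero

theorem sum_cc [Fintype (G ⧸ N)] (z : MonoidAlgebra ℂ G) : ∑ q : G ⧸ N, cc N q z = z := by
  classical
  refine algExt fun g => ?_
  rw [coeff_sum, Finsupp.finset_sum_apply, Finset.sum_eq_single (g : G ⧸ N)]
  · rw [cc, coeff_mkA, if_pos rfl]
  · intro q _ hq
    rw [cc, coeff_mkA, if_neg (Ne.symm hq)]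
  · intro h; exact absurd (Finset.mem_univ _) h

open Classical in
/-- the class sum of `h` under `N` -/
noncomputable def cu (N : Subgroup G) (h : G) : MonoidAlgebra ℂ G :=
  mkA fun g => if ∃ n ∈ N, n * h * n⁻¹ = g then 1 else 0

theorem fx_cu (h : G) : Fx N (cu N h) := by
  classical
  intro x hx g
  rw [cu, coeff_mkA, coeff_mkA]
  have : (∃ n ∈ N, n * h * n⁻¹ = x * g * x⁻¹) ↔ ∃ n ∈ N, n * h * n⁻¹ = g := by
    constructor
    · rintro ⟨n, hn, e⟩
      refine ⟨x⁻¹ * n, N.mul_mem (N.inv_mem hx) hn, ?_⟩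
      calc x⁻¹ * n * h * (x⁻¹ * n)⁻¹ = x⁻¹ * (n * h * n⁻¹) * x := by group
        _ = g := by rw [e]; group
    · rintro ⟨n, hn, e⟩
      refine ⟨x * n, N.mul_mem hx hn, ?_⟩
      calc x * n * h * (x * n)⁻¹ = x * (n * h * n⁻¹) * x⁻¹ := by group
        _ = _ := by rw [e]
  simp only [this]

theorem inS_cu (h : G) : InS M (cu N h) := by
  classical
  intro g
  rw [cu, coeff_mkA]
  split_ifs
  · exact memLocalRing_one
  · exact memLocalRing_zero

theorem sc_cu (h : G) : Sc N (h : G ⧸ N) (cu N h) := by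
  classical
  intro g hg
  rw [cu, coeff_mkA, if_neg]
  rintro ⟨n, hn, rfl⟩
  apply hg
  rw [QuotientGroup.mk_mul, QuotientGroup.mk_mul, (QuotientGroup.eq_one_iff n).2 hn, one_mul,
      QuotientGroup.mk_inv, (QuotientGroup.eq_one_iff n).2 hn, inv_one, mul_one]

/-- the size of the class is prime to `p` -/
theorem ag_cu {p : ℕ} [hp : Fact p.Prime] {P : Subgroup G} (hPN : P ≤ N) (hPi : ¬ p ∣ P.relIndex N) {h : G}
    (hh : h ∈ cz P) : ∃ n : ℕ, ag (cu N h) = n ∧ ¬ p ∣ n := by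
  classical
  haveI : Fintype N := Fintype.ofFinite _
  -- the stabilizer
  obtain ⟨S, hmS⟩ : ∃ S : Subgroup N, ∀ x : N, x ∈ S ↔ (x : G) * h = h * x :=
    ⟨(Subgroup.centralizer ({h} : Set G)).subgroupOf N, fun x => by
      rw [Subgroup.mem_subgroupOf, Subgroup.mem_centralizer_singleton_iff]⟩
  refine ⟨S.index, ?_, ?_⟩
  · have h1 : ag (cu N h) = ((Finset.univ.filter fun g : G => ∃ n ∈ N, n * h * n⁻¹ = g).card : ℂ) := by
      rw [ag, Finset.card_filter]
      push_cast
      refine Finset.sum_congr rfl fun g _ => ?_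
      rw [cu, coeff_mkA]
    rw [h1]
    congr 1
    rw [Subgroup.index, ← Fintype.card_subtype, ← Nat.card_eq_fintype_card]
    symm
    refine Nat.card_congr (Equiv.ofBijective (fun q : N ⧸ S => (⟨((Quotient.out q : N) : G) * h * ((Quotient.out q : N) : G)⁻¹,
      (Quotient.out q : N), (Quotient.out q : N).2, rfl⟩ : {g : G // ∃ n ∈ N, n * h * n⁻¹ = g})) ⟨?_, ?_⟩)
    · intro q r hqr
      have h2 : ((Quotient.out q : N) : G) * h * ((Quotient.out q : N) : G)⁻¹ = ((Quotient.out r : N) : G) * h * ((Quotient.out r : N) : G)⁻¹ :=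
        congrArg Subtype.val hqr
      rw [← Quotient.out_eq q, ← Quotient.out_eq r]
      apply QuotientGroup.eq.2
      rw [hmS]
      push_cast
      set a : G := ((Quotient.out q : N) : G)
      set b : G := ((Quotient.out r : N) : G)
      calc a⁻¹ * b * h = a⁻¹ * (b * h * b⁻¹) * b := by group
        _ = a⁻¹ * (a * h * a⁻¹) * b := by rw [h2]
        _ = h * (a⁻¹ * b) := by group
    · rintro ⟨g, n, hn, rfl⟩
      refine ⟨((⟨n, hn⟩ : N) : N ⧸ S), Subtype.ext ?_⟩
      have h2 : ((Quotient.out (((⟨n, hn⟩ : N) : N ⧸ S)) : N))⁻¹ * (⟨n, hn⟩ : N) ∈ S :=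
        QuotientGroup.eq.1 (Quotient.out_eq _)
      rw [hmS] at h2
      push_cast at h2
      show ((Quotient.out (((⟨n, hn⟩ : N) : N ⧸ S)) : N) : G) * h * ((Quotient.out (((⟨n, hn⟩ : N) : N ⧸ S)) : N) : G)⁻¹ = n * h * n⁻¹
      set a : G := ((Quotient.out (((⟨n, hn⟩ : N) : N ⧸ S)) : N) : G)
      calc a * h * a⁻¹ = a * (h * (a⁻¹ * n)) * n⁻¹ := by group
        _ = a * (a⁻¹ * n * h) * n⁻¹ := by rw [h2]
        _ = n * h * n⁻¹ := by group
  · intro hd
    apply hPi
    have h1 : P.subgroupOf N ≤ S := by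
      intro x hx
      rw [hmS]
      exact Subgroup.mem_centralizer_iff.1 hh x (Subgroup.mem_subgroupOf.1 hx)
    exact hd.trans (Subgroup.index_dvd_of_le h1)

end Basic

end CfsgIso
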