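import Cfsg.Agent.H4.Iso1

set_option autoImplicit false
set_option linter.all false

/-! # Isomorphic principal blocks: the scalars -/

open Cfsg MonoidAlgebra
open CfsgH4 hiding centralChar sum_conj regInner_symm
open CfsgH5 hiding ev_ca
open ComplexConjugate

namespace CfsgIso

section Det

variable {M : Ideal AlgInt} [hMp : M.IsPrime]

theorem det_ne {Q : Type*} [Fintype Q] [DecidableEq Q] (m : Matrix Q Q ℂ) (hm : ∀ i j, MemLocalIdeal M (m i j)) : (1 - m).det ≠ 0 := by
  have hmr : ∀ i j, MemLocalRing M (m i j) := fun i j => by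
    obtain ⟨a, b, ha, hb, h⟩ := hm i j
    exact ⟨a, b, hb, h⟩
  set m' : Matrix Q Q (locRing M) := fun i j => ⟨m i j, hmr i j⟩ with hm'
  set φ : locRing M →+* kk M := Ideal.Quotient.mk (locIdeal M) with hφ
  set ι : locRing M →+* ℂ := (locRing M).subtype with hι
  have h1 : φ ((1 - m').det) = 1 := by
    rw [RingHom.map_det, map_sub, map_one]
    have : φ.mapMatrix m' = 0 := by
      ext i j
      show φ (m' i j) = 0
      rw [hφ, Ideal.Quotient.eq_zero_iff_mem, mem_locIdeal]
      exact hm i j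
    rw [this, sub_zero, Matrix.det_one]
  have h2 : ι ((1 - m').det) = (1 - m).det := by
    rw [RingHom.map_det, map_sub, map_one]
    congr 1
  intro h0
  rw [h0] at h2
  have h3 : (1 - m').det = 0 := by
    apply Subtype.ext
    exact h2
  rw [h3, map_zero] at h1
  exact zero_ne_one h1

/-- solving a linear system -/
theorem solve {Q : Type*} [Fintype Q] [DecidableEq Q] {W : Type*} [AddCommGroup W] [Module ℂ W] (m : Matrix Q Q ℂ)
    (hdet : (1 - m).det ≠ 0) (n : Q → ℂ) : ∃ c : Q → ℂ, ∀ (y : Q → W) (w : W), (∀ h, y h = n h • w + ∑ q, m h q • y q) → ∀ h, y h = c h • w := by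
  set A := 1 - m with hA
  have hu : IsUnit A.det := isUnit_iff_ne_zero.2 hdet
  have hBA : A⁻¹ * A = 1 := Matrix.nonsing_inv_mul A hu
  refine ⟨fun h => ∑ j, A⁻¹ h j * n j, fun y w hy h => ?_⟩
  have h1 : ∀ j, ∑ q, A j q • y q = n j • w := by
    intro j
    have h2 : ∑ q, A j q • y q = y j - ∑ q, m j q • y q := by
      have h3 : ∀ q, A j q • y q = (1 : Matrix Q Q ℂ) j q • y q - m j q • y q := fun q => by
        rw [hA, Matrix.sub_apply, sub_smul]
      rw [Finset.sum_congr rfl fun q _ => h3 q, Finset.sum_sub_distrib]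
      congr 1
      rw [Finset.sum_eq_single j]
      · rw [Matrix.one_apply_eq, one_smul]
      · intro q _ hq
        rw [Matrix.one_apply_ne (Ne.symm hq), zero_smul]
      · intro h; exact absurd (Finset.mem_univ _) h
    rw [h2]
    conv_lhs => rw [hy j]
    abel
  have h2 : ∑ j, A⁻¹ h j • ∑ q, A j q • y q = y h := by
    have h3 : ∀ j, A⁻¹ h j • ∑ q, A j q • y q = ∑ q, (A⁻¹ h j * A j q) • y q := fun j => by
      rw [Finset.smul_sum]
      exact Finset.sum_congr rfl fun q _ => smul_smul _ _ _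
    rw [Finset.sum_congr rfl fun j _ => h3 j, Finset.sum_comm]
    have h4 : ∀ q, ∑ j, (A⁻¹ h j * A j q) • y q = (1 : Matrix Q Q ℂ) h q • y q := fun q => by
      rw [← Finset.sum_smul, ← hBA, Matrix.mul_apply]
    rw [Finset.sum_congr rfl fun q _ => h4 q, Finset.sum_eq_single h]
    · rw [Matrix.one_apply_eq, one_smul]
    · intro q _ hq
      rw [Matrix.one_apply_ne (Ne.symm hq), zero_smul]
    · intro h; exact absurd (Finset.mem_univ _) h
  rw [← h2, Finset.sum_congr rfl fun j _ => by rw [h1 j]]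
  simp only [smul_smul]
  rw [← Finset.sum_smul]

end Det

section Scal

variable {G : Type*} [Group G] [Fintype G] {M : Ideal AlgInt} [hMp : M.IsPrime] {N : Subgroup G} [hN : N.Normal]

/-- the idempotent of a character of `N` -/
noncomputable def eth (N : Subgroup G) (θ : IrrCharacter N) : MonoidAlgebra ℂ G := embK N (eSet {θ})

/-- the central character on elements supported on `N` -/
noncomputable def sth (N : Subgroup G) (θ : IrrCharacter N) (z : MonoidAlgebra ℂ G) : ℂ := om (θ : N → ℂ) (rsK N z)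

theorem embK_smul' (c : ℂ) (z : MonoidAlgebra ℂ N) : embK N (c • z) = c • embK N z := by
  refine algExt fun g => ?_
  by_cases hg : g ∈ N
  · have h1 := coeff_embK_mem (c • z) (⟨g, hg⟩ : N)
    have h2 := coeff_embK_mem z (⟨g, hg⟩ : N)
    have h3 : (c • embK N z).coeff g = c * (embK N z).coeff g := rfl
    rw [h3]
    simp only at h1 h2
    rw [h1, h2]; rfl
  · have h3 : (c • embK N z).coeff g = c * (embK N z).coeff g := rfl
    rw [h3, coeff_embK_notMem _ hg, coeff_embK_notMem _ hg, mul_zero]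

theorem mul_eth (θ : IrrCharacter N) {z : MonoidAlgebra ℂ G} (hs : Sup N z) (hf : Fx N z) :
    z * eth N θ = sth N θ z • eth N θ := by
  rw [eth, sth, ← embK_smul', ← om_isBl (isCen_rsK hf), map_mul, embK_rsK hs]

theorem sth_mem (θ : IrrCharacter N) {z : MonoidAlgebra ℂ G} (hf : Fx N z) (hS : InS M z) : MemLocalRing M (sth N θ z) :=
  memLocalRing_om θ.2 (isCen_rsK hf) (fun n => hS n)

theorem sth_cong {θ : IrrCharacter N} (hθ : θ ∈ principalBlock M N) {z : MonoidAlgebra ℂ G} (hs : Sup N z) (hf : Fx N z)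
    (hS : InS M z) : resid M (sth N θ z) = resid M (ag z) := by
  classical
  haveI : Fintype N := Fintype.ofFinite _
  have h1 := sameBlock_om (isIrrCharacter_one (G := N)) θ.2 hθ (isCen_rsK hf) (fun n => hS n)
  have h2 : om (fun _ : N => (1 : ℂ)) (rsK N z) = ag z := by
    rw [om, ev_eq_sum, div_one, ag]
    have h3 : ∑ g : G, z.coeff g = ∑ n : N, z.coeff (n : G) := sum_of_support (H := N) (fun g => z.coeff g) hs
    rw [h3]
    exact Finset.sum_congr rfl fun n _ => mul_one _
  rw [h2] at h1
  have h3 : MemLocalRing M (ag z) := memLocalRing_sum _ _ fun g _ => hS g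
  symm
  rw [resid_eq_iff h3 (sth_mem θ hf hS)]
  exact h1

theorem fx_mul {z w : MonoidAlgebra ℂ G} (hz : Fx N z) (hw : Fx N w) : Fx N (z * w) := by
  rw [fx_iff_commute] at hz hw ⊢
  exact fun x hx => (hz x hx).mul_left (hw x hx)

theorem comm_eth (θ : IrrCharacter N) {z : MonoidAlgebra ℂ G} (hf : Fx N z) : z * eth N θ = eth N θ * z :=
  hf.comm_sup (sup_embK _)

end Scal

end CfsgIso
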