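import Cfsg.Agent.H4.Iso2

set_option autoImplicit false
set_option linter.all false

/-! # Isomorphic principal blocks: the class sums act by scalars -/

open Cfsg MonoidAlgebra
open CfsgH4 hiding centralChar sum_conj regInner_symm
open CfsgH5 hiding ev_ca
open ComplexConjugate

namespace CfsgIso

section Scal

variable {G : Type*} [Group G] [Fintype G] {M : Ideal AlgInt} [hMp : M.IsPrime] {p : ℕ} [hp : Fact p.Prime]
variable {N : Subgroup G} [hN : N.Normal] [Fintype (G ⧸ N)]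

theorem ag_mem {z : MonoidAlgebra ℂ G} (hz : InS M z) : MemLocalRing M (ag z) := memLocalRing_sum _ _ fun g _ => hz g

theorem resid_ag_mul {z w : MonoidAlgebra ℂ G} (hz : InS M z) (hw : InS M w) :
    resid M (ag (z * w)) = resid M (ag z) * resid M (ag w) := by
  rw [ag_mul, resid_mul (ag_mem hz) (ag_mem hw)]

theorem resid_nat_ne (hM : IsPModular p M) {n : ℕ} (hn : ¬ p ∣ n) : resid M (n : ℂ) ≠ 0 := by
  rw [Ne, resid_eq_zero_iff (memLocalRing_natCast n), memLocalIdeal_natCast_iff hM]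
  exact hn

theorem exists_scal (hM : IsPModular p M) {s : G ⧸ N → G} (hs : ∀ q, ((s q : G) : G ⧸ N) = q)
    (hU : ∀ q, ∃ n : ℕ, ag (cu N (s q)) = n ∧ ¬ p ∣ n) (hV : ∀ q, ∃ n : ℕ, ag (cu N (s q)⁻¹) = n ∧ ¬ p ∣ n)
    {E : MonoidAlgebra ℂ G} (hE : IsCen E) (hES : InS M E) (hEE : E * E = E)
    (hEa : ∀ q, ag (cc N q E) = (Nat.card (G ⧸ N) : ℂ)⁻¹) {θ : IrrCharacter N} (hθ : θ ∈ principalBlock M N) :
    (∃ c : G ⧸ N → ℂ, ∀ q, cu N (s q) * (eth N θ * E) = c q • (eth N θ * E)) ∧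
    ∀ q, ∃ δ : ℂ, δ ≠ 0 ∧ cu N (s q)⁻¹ * cu N (s q) * eth N θ = δ • eth N θ := by
  classical
  have hfE : Fx N E := fun x _ g => hE x g
  set U : G ⧸ N → MonoidAlgebra ℂ G := fun q => cu N (s q) with hUd
  set V : G ⧸ N → MonoidAlgebra ℂ G := fun q => cu N (s q)⁻¹ with hVd
  set Ec : G ⧸ N → MonoidAlgebra ℂ G := fun q => cc N q E with hEd
  have scU : ∀ q, Sc N q (U q) := fun q => by
    have := sc_cu (N := N) (s q)
    rwa [hs q] at this
  have scV : ∀ q, Sc N q⁻¹ (V q) := fun q => by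
    have := sc_cu (N := N) (s q)⁻¹
    rwa [QuotientGroup.mk_inv, hs q] at this
  have scE : ∀ q, Sc N q (Ec q) := fun q => sc_cc q E
  have fU : ∀ q, Fx N (U q) := fun q => fx_cu _
  have fV : ∀ q, Fx N (V q) := fun q => fx_cu _
  have fE : ∀ q, Fx N (Ec q) := fun q => fx_cc q hfE
  have iU : ∀ q, InS M (U q) := fun q => inS_cu _
  have iV : ∀ q, InS M (V q) := fun q => inS_cu _
  have iE : ∀ q, InS M (Ec q) := fun q => inS_cc q hES
  have sup1 : ∀ {q : G ⧸ N} {z : MonoidAlgebra ℂ G}, Sc N q z → q = 1 → Sup N z := fun h h1 => by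
    rw [h1] at h; exact h.sup
  have sVU : ∀ q, Sup N (V q * U q) := fun q => sup1 ((scV q).mul (scU q)) (inv_mul_cancel q)
  have sEV : ∀ q, Sup N (Ec q * V q) := fun q => sup1 ((scE q).mul (scV q)) (mul_inv_cancel q)
  have sUUV : ∀ h r, Sup N (U h * U r * V (h * r)) := fun h r =>
    sup1 (((scU h).mul (scU r)).mul (scV (h * r))) (mul_inv_cancel (h * r))
  set δ : G ⧸ N → ℂ := fun q => sth N θ (V q * U q) with hδ
  set α : G ⧸ N → ℂ := fun q => sth N θ (Ec q * V q) with hα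
  set β : G ⧸ N → G ⧸ N → ℂ := fun h r => sth N θ (U h * U r * V (h * r)) with hβ
  set u : G ⧸ N → kk M := fun q => resid M (ag (U q)) with hu
  set v : G ⧸ N → kk M := fun q => resid M (ag (V q)) with hv
  set ι : kk M := resid M ((Nat.card (G ⧸ N) : ℂ)⁻¹) with hι
  have hu0 : ∀ q, u q ≠ 0 := fun q => by
    obtain ⟨n, h1, h2⟩ := hU q
    show resid M (ag (cu N (s q))) ≠ 0
    rw [h1]; exact resid_nat_ne hM h2
  have hv0 : ∀ q, v q ≠ 0 := fun q => by
    obtain ⟨n, h1, h2⟩ := hV q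
    show resid M (ag (cu N (s q)⁻¹)) ≠ 0
    rw [h1]; exact resid_nat_ne hM h2
  have mδ : ∀ q, MemLocalRing M (δ q) := fun q => sth_mem θ (fx_mul (fV q) (fU q)) ((iV q).mul (iU q))
  have mα : ∀ q, MemLocalRing M (α q) := fun q => sth_mem θ (fx_mul (fE q) (fV q)) ((iE q).mul (iV q))
  have mβ : ∀ h r, MemLocalRing M (β h r) := fun h r =>
    sth_mem θ (fx_mul (fx_mul (fU h) (fU r)) (fV _)) (((iU h).mul (iU r)).mul (iV _))
  have rδ : ∀ q, resid M (δ q) = v q * u q := fun q => by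
    show resid M (sth N θ (V q * U q)) = _
    rw [sth_cong hθ (sVU q) (fx_mul (fV q) (fU q)) ((iV q).mul (iU q)), resid_ag_mul (iV q) (iU q)]
  have rα : ∀ q, resid M (α q) = ι * v q := fun q => by
    show resid M (sth N θ (Ec q * V q)) = _
    rw [sth_cong hθ (sEV q) (fx_mul (fE q) (fV q)) ((iE q).mul (iV q)), resid_ag_mul (iE q) (iV q)]
    congr 1
    show resid M (ag (cc N q E)) = ι
    rw [hEa]
  have rβ : ∀ h r, resid M (β h r) = u h * u r * v (h * r) := fun h r => by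
    show resid M (sth N θ (U h * U r * V (h * r))) = _
    rw [sth_cong hθ (sUUV h r) (fx_mul (fx_mul (fU h) (fU r)) (fV _)) (((iU h).mul (iU r)).mul (iV _)),
      resid_ag_mul ((iU h).mul (iU r)) (iV _), resid_ag_mul (iU h) (iU r)]
  have hδI : ∀ q, ¬ MemLocalIdeal M (δ q) := fun q h => by
    have := (resid_eq_zero_iff (mδ q)).2 h
    rw [rδ] at this
    exact mul_ne_zero (hv0 q) (hu0 q) this
  have hδ0 : ∀ q, δ q ≠ 0 := fun q => ne_zero_of_not_memLocalIdeal (hδI q)
  have mδi : ∀ q, MemLocalRing M ((δ q)⁻¹) := fun q => memLocalRing_inv (mδ q) (hδI q)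
  set κ : G ⧸ N → ℂ := fun q => α q * (δ q)⁻¹ with hκ
  have mκ : ∀ q, MemLocalRing M (κ q) := fun q => MemLocalRing.mul (mα q) (mδi q)
  have rκ : ∀ q, resid M (κ q) * u q = ι := fun q => by
    have h1 : resid M (κ q) * resid M (δ q) = resid M (α q) := by
      rw [← resid_mul (mκ q) (mδ q)]
      congr 1
      show α q * (δ q)⁻¹ * δ q = α q
      rw [mul_assoc, inv_mul_cancel₀ (hδ0 q), mul_one]
    rw [rδ, rα] at h1
    apply mul_right_cancel₀ (hv0 q)
    rw [← h1]; ring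
  -- the relations
  have S1 : ∀ q, Ec q * eth N θ = κ q • (U q * eth N θ) := by
    intro q
    have h1 : Ec q * (V q * U q) * eth N θ = δ q • (Ec q * eth N θ) := by
      rw [mul_assoc, mul_eth θ (sVU q) (fx_mul (fV q) (fU q)), mul_smul_comm]
    have h2 : Ec q * (V q * U q) * eth N θ = α q • (U q * eth N θ) := by
      rw [← mul_assoc, mul_assoc, comm_eth θ (fU q), ← mul_assoc, mul_eth θ (sEV q) (fx_mul (fE q) (fV q)), smul_mul_assoc]
    have h3 : δ q • (Ec q * eth N θ) = α q • (U q * eth N θ) := h1.symm.trans h2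
    have h4 := congrArg (fun z => (δ q)⁻¹ • z) h3
    simp only [smul_smul] at h4
    rw [inv_mul_cancel₀ (hδ0 q), one_smul] at h4
    rw [h4]
    show _ = (α q * (δ q)⁻¹) • _
    rw [mul_comm]
  have S2 : ∀ h r, U h * U r * eth N θ = (β h r * (δ (h * r))⁻¹) • (U (h * r) * eth N θ) := by
    intro h r
    have h1 : U h * U r * (V (h * r) * U (h * r)) * eth N θ = δ (h * r) • (U h * U r * eth N θ) := by
      rw [mul_assoc (U h * U r), mul_eth θ (sVU _) (fx_mul (fV _) (fU _)), mul_smul_comm]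
    have h2 : U h * U r * (V (h * r) * U (h * r)) * eth N θ = β h r • (U (h * r) * eth N θ) := by
      rw [← mul_assoc, mul_assoc, comm_eth θ (fU _), ← mul_assoc,
        mul_eth θ (sUUV h r) (fx_mul (fx_mul (fU h) (fU r)) (fV _)), smul_mul_assoc]
    have h3 := h1.symm.trans h2
    have h4 := congrArg (fun z => (δ (h * r))⁻¹ • z) h3
    simp only [smul_smul] at h4
    rw [inv_mul_cancel₀ (hδ0 _), one_smul] at h4
    rw [h4, mul_comm (β h r)]
  set w := eth N θ * E with hw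
  set y : G ⧸ N → MonoidAlgebra ℂ G := fun q => U q * w with hy
  have hwE : w * E = w := by rw [hw, mul_assoc, hEE]
  have hsumE : ∑ q, Ec q = E := sum_cc E
  have hcomE : ∀ z : MonoidAlgebra ℂ G, E * z = z * E := fun z =>
    (show Fx (⊤ : Subgroup G) E from fun x _ g => hE x g).comm_sup (fun g hg => absurd trivial hg)
  have E1 : w = ∑ q, κ q • y q := by
    calc w = eth N θ * (E * E) := by rw [hEE]
      _ = (E * eth N θ) * E := by rw [← mul_assoc, hcomE]
      _ = (∑ q, Ec q * eth N θ) * E := by rw [← Finset.sum_mul, hsumE]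
      _ = ∑ q, κ q • y q := by
        rw [Finset.sum_mul]
        refine Finset.sum_congr rfl fun q _ => ?_
        rw [S1, smul_mul_assoc, mul_assoc]
  have E2 : ∀ h, y h = ∑ q, (κ (h⁻¹ * q) * (β h (h⁻¹ * q) * (δ q)⁻¹)) • y q := by
    intro h
    have h1 : y h = ∑ r, (κ r * (β h r * (δ (h * r))⁻¹)) • y (h * r) := by
      calc y h = U h * w := rfl
        _ = U h * ∑ q, κ q • y q := by rw [← E1]
        _ = _ := by
          rw [Finset.mul_sum]
          refine Finset.sum_congr rfl fun r _ => ?_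
          have h5 : U h * y r = (β h r * (δ (h * r))⁻¹) • y (h * r) := by
            show U h * (U r * (eth N θ * E)) = (β h r * (δ (h * r))⁻¹) • (U (h * r) * (eth N θ * E))
            rw [← mul_assoc, ← mul_assoc, S2, smul_mul_assoc, mul_assoc]
          rw [mul_smul_comm, h5, smul_smul]
    rw [h1, ← Equiv.sum_comp (Equiv.mulLeft h) (fun q => (κ (h⁻¹ * q) * (β h (h⁻¹ * q) * (δ q)⁻¹)) • y q)]
    refine Finset.sum_congr rfl fun r _ => ?_
    simp only [Equiv.coe_mulLeft, inv_mul_cancel_left]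
  set m : Matrix (G ⧸ N) (G ⧸ N) ℂ := fun h q => κ (h⁻¹ * q) * (β h (h⁻¹ * q) * (δ q)⁻¹) - ag (U h) * κ q with hm
  have hmI : ∀ h q, MemLocalIdeal M (m h q) := by
    intro h q
    have mm : MemLocalRing M (m h q) := MemLocalRing.sub (MemLocalRing.mul (mκ _) (MemLocalRing.mul (mβ _ _) (mδi _)))
      (MemLocalRing.mul (ag_mem (iU h)) (mκ q))
    rw [← resid_eq_zero_iff mm]
    have h1 : m h q * δ q = κ (h⁻¹ * q) * β h (h⁻¹ * q) - ag (U h) * κ q * δ q := by
      show (κ (h⁻¹ * q) * (β h (h⁻¹ * q) * (δ q)⁻¹) - ag (U h) * κ q) * δ q = _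
      have := inv_mul_cancel₀ (hδ0 q)
      linear_combination (κ (h⁻¹ * q) * β h (h⁻¹ * q)) * this
    have h2 : resid M (m h q) * resid M (δ q) = 0 := by
      rw [← resid_mul mm (mδ q), h1, resid_sub (MemLocalRing.mul (mκ _) (mβ _ _))
        (MemLocalRing.mul (MemLocalRing.mul (ag_mem (iU h)) (mκ q)) (mδ q)), resid_mul (mκ _) (mβ _ _),
        resid_mul (MemLocalRing.mul (ag_mem (iU h)) (mκ q)) (mδ q), resid_mul (ag_mem (iU h)) (mκ q), rβ, rδ,
        mul_inv_cancel_left]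
      have e1 := rκ (h⁻¹ * q)
      have e2 := rκ q
      show resid M (κ (h⁻¹ * q)) * (u h * u (h⁻¹ * q) * v q) - u h * resid M (κ q) * (v q * u q) = 0
      linear_combination (u h * v q) * e1 - (u h * v q) * e2
    rcases mul_eq_zero.1 h2 with h3 | h3
    · exact h3
    · rw [rδ] at h3
      exact absurd h3 (mul_ne_zero (hv0 q) (hu0 q))
  obtain ⟨c, hc⟩ := solve (W := MonoidAlgebra ℂ G) m (det_ne m hmI) (fun h => ag (U h))
  constructor
  · refine ⟨c, fun q => hc y w ?_ q⟩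
    intro h
    have h1 : ∑ q, m h q • y q = y h - ag (U h) • w := by
      conv_rhs => rw [E2 h, E1, Finset.smul_sum, ← Finset.sum_sub_distrib]
      refine Finset.sum_congr rfl fun q _ => ?_
      rw [smul_smul, ← sub_smul]
    rw [h1]; abel
  · intro q
    exact ⟨δ q, hδ0 q, mul_eth θ (sVU q) (fx_mul (fV q) (fU q))⟩

end Scal

end CfsgIso
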