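import Cfsg.Agent.H4.Iso3
import Cfsg.Agent.H4.RepEquiv

set_option autoImplicit false
set_option linter.all false

/-! # Isomorphic principal blocks: intertwining maps -/

open Cfsg MonoidAlgebra
open CfsgH4 hiding centralChar sum_conj regInner_symm
open CfsgH5 hiding ev_ca
open ComplexConjugate

namespace CfsgIso

section Inter

variable {G : Type*} [Group G] [Fintype G] {M : Ideal AlgInt} [hMp : M.IsPrime]
variable {N : Subgroup G} [hN : N.Normal]

theorem sum_eth : ∑ θ : IrrCharacter N, eth N θ = 1 := by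
  classical
  have h1 : ∑ θ : IrrCharacter N, eSet {θ} = (1 : MonoidAlgebra ℂ N) := by
    refine cen_ext (isCen_sum _ _ fun θ _ => isCen_eSet _) isCen_one fun ψ => ?_
    rw [om_sum, om_one ψ.2, Finset.sum_eq_single ψ]
    · rw [om_eSet, if_pos (Set.mem_singleton ψ)]
    · intro θ _ hne
      rw [om_eSet, if_neg (fun h => hne (Set.mem_singleton_iff.1 h).symm)]
    · intro h; exact absurd (Finset.mem_univ _) h
  have h2 := congrArg (embK N) h1
  rw [map_sum, map_one] at h2
  exact h2

variable {V : Type*} [AddCommGroup V] [Module ℂ V] [FiniteDimensional ℂ V]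
  {W : Type*} [AddCommGroup W] [Module ℂ W] [FiniteDimensional ℂ W]

theorem inter_sup {ρ : Representation ℂ G V} {σ : Representation ℂ G W} {T : V →ₗ[ℂ] W}
    (hT : ∀ n ∈ N, ∀ w, T (ρ n w) = σ n (T w)) {z : MonoidAlgebra ℂ G} (hz : Sup N z) (w : V) :
    T (ρ.asAlgebraHom z w) = σ.asAlgebraHom z (T w) := by
  rw [← embK_rsK hz]
  generalize rsK N z = x
  induction x using MonoidAlgebra.induction_linear with
  | zero => simp
  | add f g hf hg =>
    rw [map_add, map_add, map_add, LinearMap.add_apply, LinearMap.add_apply, map_add, hf, hg]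
  | single n r =>
    rw [embK_single, Representation.asAlgebraHom_single, Representation.asAlgebraHom_single,
      LinearMap.smul_apply, LinearMap.smul_apply, map_smul, hT n n.2]

theorem inter_ext {s : G ⧸ N → G} (hs : ∀ q, ((s q : G) : G ⧸ N) = q) {E : MonoidAlgebra ℂ G}
    (h1 : ∀ θ ∈ principalBlock M N, ∃ c : G ⧸ N → ℂ, ∀ q, cu N (s q) * (eth N θ * E) = c q • (eth N θ * E))
    (h2 : ∀ θ ∈ principalBlock M N, ∀ q, ∃ δ : ℂ, δ ≠ 0 ∧ cu N (s q)⁻¹ * cu N (s q) * eth N θ = δ • eth N θ)
    {ρ : Representation ℂ G V} {σ : Representation ℂ G W} (hρ : ρ.asAlgebraHom E = 1) (hσ : σ.asAlgebraHom E = 1)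
    (hρ0 : ∀ θ, θ ∉ principalBlock M N → ρ.asAlgebraHom (eth N θ) = 0) {T : V →ₗ[ℂ] W}
    (hT : ∀ n ∈ N, ∀ w, T (ρ n w) = σ n (T w)) (g : G) (w : V) : T (ρ g w) = σ g (T w) := by
  classical
  set π := ρ.asAlgebraHom with hπ
  set τ := σ.asAlgebraHom with hτ
  have hsumπ : ∀ w : V, w = ∑ θ : IrrCharacter N, π (eth N θ) w := by
    intro w
    have h3 : (∑ θ : IrrCharacter N, π (eth N θ)) w = w := by
      rw [← map_sum, sum_eth, map_one]; rfl
    rw [LinearMap.sum_apply] at h3
    exact h3.symm
  have hsupe : ∀ θ, Sup N (eth N θ) := fun θ => sup_embK _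
  -- commutation with the class sums
  have hU : ∀ (q : G ⧸ N) (w : V), T (π (cu N (s q)) w) = τ (cu N (s q)) (T w) := by
    intro q w
    have h3 : ∀ θ : IrrCharacter N, T (π (cu N (s q)) (π (eth N θ) w)) = τ (cu N (s q)) (T (π (eth N θ) w)) := by
      intro θ
      by_cases hθ : θ ∈ principalBlock M N
      · obtain ⟨c, hc⟩ := h1 θ hθ
        have e1 : π (cu N (s q)) (π (eth N θ) w) = c q • π (eth N θ) w := by
          have := congrArg (fun z => π z w) (hc q)
          simp only [map_mul, map_smul, hρ, mul_one] at this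
          exact this
        have e2 : τ (cu N (s q)) (τ (eth N θ) (T w)) = c q • τ (eth N θ) (T w) := by
          have := congrArg (fun z => τ z (T w)) (hc q)
          simp only [map_mul, map_smul, hσ, mul_one] at this
          exact this
        rw [e1, map_smul, inter_sup hT (hsupe θ), e2]
      · rw [hρ0 θ hθ, LinearMap.zero_apply, map_zero, map_zero, map_zero]
    conv_lhs => rw [hsumπ w]
    conv_rhs => rw [hsumπ w]
    rw [map_sum, map_sum, map_sum, map_sum]
    exact Finset.sum_congr rfl fun θ _ => h3 θ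
  have hsq : ∀ (q : G ⧸ N) (w : V), T (ρ (s q) w) = σ (s q) (T w) := by
    intro q w
    set a' : MonoidAlgebra ℂ G := single (s q)⁻¹ 1 * cu N (s q) with ha'
    have hsa : Sup N a' := by
      have h3 : Sc N (q⁻¹ * q) a' := by
        refine Sc.mul ?_ ?_
        · intro g hg
          rw [coeff_single_apply, if_neg]
          rintro rfl
          apply hg
          rw [QuotientGroup.mk_inv, hs]
        · have := sc_cu (N := N) (s q)
          rwa [hs q] at this
      rw [inv_mul_cancel] at h3
      exact h3.sup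
    have hUa : single (s q) 1 * a' = cu N (s q) := by
      rw [ha', ← mul_assoc, single_mul_single, mul_inv_cancel, mul_one]
      exact one_mul _
    have hπU : ∀ v : V, ρ (s q) (π a' v) = π (cu N (s q)) v := by
      intro v
      have := congrArg (fun z => π z v) hUa
      simp only [map_mul] at this
      rw [← this]
      show _ = π (single (s q) 1) (π a' v)
      rw [hπ, Representation.asAlgebraHom_single, one_smul]
    have hτU : ∀ v : W, σ (s q) (τ a' v) = τ (cu N (s q)) v := by
      intro v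
      have := congrArg (fun z => τ z v) hUa
      simp only [map_mul] at this
      rw [← this]
      show _ = τ (single (s q) 1) (τ a' v)
      rw [hτ, Representation.asAlgebraHom_single, one_smul]
    have hinj : Function.Injective (π a') := by
      rw [← LinearMap.ker_eq_bot, LinearMap.ker_eq_bot']
      intro v hv
      have h3 : π (cu N (s q)) v = 0 := by rw [← hπU, hv, map_zero]
      rw [hsumπ v]
      refine Finset.sum_eq_zero fun θ _ => ?_
      by_cases hθ : θ ∈ principalBlock M N
      · obtain ⟨δ, hδ, hd⟩ := h2 θ hθ q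
        have h4 : cu N (s q)⁻¹ * (eth N θ * cu N (s q)) = δ • eth N θ := by
          rw [← comm_eth θ (fx_cu (s q)), ← mul_assoc]; exact hd
        have h5 := congrArg (fun z => π z v) h4
        simp only [map_mul, map_smul] at h5
        have h6 : π (cu N (s q)⁻¹) (π (eth N θ) (π (cu N (s q)) v)) = δ • π (eth N θ) v := h5
        rw [h3, map_zero, map_zero] at h6
        exact (smul_eq_zero.1 h6.symm).resolve_left hδ
      · rw [hρ0 θ hθ]; rfl
    obtain ⟨v, rfl⟩ := (LinearMap.injective_iff_surjective.1 hinj) w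
    rw [hπU, hU, ← hτU, inter_sup hT hsa]
  -- general elements
  set q : G ⧸ N := (g : G ⧸ N) with hq
  have hn : g * (s q)⁻¹ ∈ N := by
    rw [← QuotientGroup.eq_one_iff, QuotientGroup.mk_mul, QuotientGroup.mk_inv, hs q, hq, mul_inv_cancel]
  have e1 : g = (g * (s q)⁻¹) * s q := by group
  have e2 : ρ g w = ρ (g * (s q)⁻¹) (ρ (s q) w) := by
    conv_lhs => rw [e1, map_mul]
    rfl
  have e3 : σ g (T w) = σ (g * (s q)⁻¹) (σ (s q) (T w)) := by
    conv_lhs => rw [e1, map_mul]
    rfl
  rw [e2, hT _ hn, hsq, ← e3]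

/-- restriction is isometric -/
theorem res_iso [Fintype N] {s : G ⧸ N → G} (hs : ∀ q, ((s q : G) : G ⧸ N) = q) {E : MonoidAlgebra ℂ G} (hE : IsCen E)
    (h1 : ∀ θ ∈ principalBlock M N, ∃ c : G ⧸ N → ℂ, ∀ q, cu N (s q) * (eth N θ * E) = c q • (eth N θ * E))
    (h2 : ∀ θ ∈ principalBlock M N, ∀ q, ∃ δ : ℂ, δ ≠ 0 ∧ cu N (s q)⁻¹ * cu N (s q) * eth N θ = δ • eth N θ)
    (h0 : ∀ θ, θ ∉ principalBlock M N → eth N θ * E = 0) {χ ψ : IrrCharacter G}
    (hχ : om (χ : G → ℂ) E = 1) (hψ : om (ψ : G → ℂ) E = 1) :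
    classInner (fun n : N => (ψ : G → ℂ) n) (fun n : N => (χ : G → ℂ) n) = classInner (ψ : G → ℂ) (χ : G → ℂ) := by
  classical
  obtain ⟨χ, n, ρ, hρi, rfl⟩ := χ
  obtain ⟨ψ, m, σ, hσi, rfl⟩ := ψ
  simp only at hχ hψ ⊢
  have hρ : ρ.asAlgebraHom E = 1 := by
    rw [rep_central ρ hρi hE, hχ, one_smul]; rfl
  have hσ : σ.asAlgebraHom E = 1 := by
    rw [rep_central σ hσi hE, hψ, one_smul]; rfl
  have hρ0 : ∀ θ, θ ∉ principalBlock M N → ρ.asAlgebraHom (eth N θ) = 0 := by
    intro θ hθ
    have h3 := congrArg ρ.asAlgebraHom (h0 θ hθ)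
    rwa [map_mul, hρ, mul_one, map_zero] at h3
  have hN := inner_eq_finrank_hom (ρ.comp N.subtype) (σ.comp N.subtype)
  have hG := inner_eq_finrank_hom ρ σ
  have e1 : (Representation.character (σ.comp N.subtype)) = fun n : N => σ.character n := rfl
  have e2 : (Representation.character (ρ.comp N.subtype)) = fun n : N => ρ.character n := rfl
  rw [e1, e2] at hN
  rw [hN, hG]
  congr 1
  have hT : ∀ T : Representation.IntertwiningMap (ρ.comp N.subtype) (σ.comp N.subtype), ∀ (g : G) (w : Fin n → ℂ),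
      T.toLinearMap (ρ g w) = σ g (T.toLinearMap w) := by
    intro T
    refine inter_ext hs h1 h2 hρ hσ hρ0 ?_
    intro x hx w
    have h4 := T.isIntertwining' ⟨x, hx⟩
    exact congrArg (fun f => f w) h4
  refine LinearEquiv.finrank_eq
    { toFun := fun T => (⟨T.toLinearMap, fun g => LinearMap.ext fun w => hT T g w⟩ : Representation.IntertwiningMap ρ σ)
      invFun := fun T => (⟨T.toLinearMap, fun x => T.isIntertwining' x⟩ : Representation.IntertwiningMap (ρ.comp N.subtype) (σ.comp N.subtype))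
      map_add' := fun T T' => rfl
      map_smul' := fun c T => rfl
      left_inv := fun T => rfl
      right_inv := fun T => rfl }

end Inter

end CfsgIso
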