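import Cfsg.Agent.H4.Iso4
import Cfsg.Agent.H4.Nil6
import Cfsg.Agent.H4.Bp6
import Cfsg.Agent.H4.Cov6

set_option autoImplicit false
set_option linter.all false

/-! # Isomorphic principal blocks -/

open Cfsg MonoidAlgebra
open CfsgH4 hiding centralChar sum_conj regInner_symm
open CfsgH5 hiding ev_ca
open ComplexConjugate

namespace CfsgIso

section Facts

variable {G : Type*} [Group G] [Fintype G] {M : Ideal AlgInt} [hMp : M.IsPrime] {p : ℕ} [hp : Fact p.Prime]
variable {N : Subgroup G} [hN : N.Normal]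

theorem om_one_eq_ag (z : MonoidAlgebra ℂ G) : om (fun _ : G => (1 : ℂ)) z = ag z := by
  rw [om, ev_eq_sum, div_one, ag]
  exact Finset.sum_congr rfl fun n _ => mul_one _

theorem eN_cen : IsCen (embK N (eSet (principalBlock M N))) := by
  rw [← fx_top, fx_iff]
  intro x _
  have hb : IsPBlock M (principalBlock M N) := isPBlock_principal
  have h := (isLb_embK (M := M) (H := N) hb).ca x
  have h1 : ca x (idH M N (principalBlock M N)) = idH M N (principalBlock M N) := by
    have := ca_pr (M := M) x N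
    rw [cj_normal] at this
    exact this
  rw [h1, cj_normal] at h
  exact h.unique (isLb_embK hb)

theorem eN_mul : embK N (eSet (principalBlock M N)) * eSet (principalBlock M G) = eSet (principalBlock M G) := by
  classical
  haveI : Fintype N := Fintype.ofFinite _
  set e := embK N (eSet (principalBlock M N)) with he
  have hc : IsCen e := eN_cen
  have hee : e * e = e := by rw [he, ← map_mul, eSet_mul_self]
  have hb : IsPBlock M (principalBlock M N) := isPBlock_principal
  have heS : InS M e := (isLb_embK (M := M) (H := N) hb).inS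
  refine cen_ext (hc.mul (isCen_eSet _)) (isCen_eSet _) fun ψ => ?_
  rw [om_mul ψ.2 hc, om_eSet]
  split_ifs with hψ
  · have h1 : om (fun _ : G => (1 : ℂ)) e = 1 := by
      rw [om_one_eq_ag, ag]
      have h3 : ∑ g : G, e.coeff g = ∑ n : N, e.coeff (n : G) := sum_of_support (H := N) (fun g => e.coeff g) (sup_embK _)
      rw [h3]
      have h4 : om (fun _ : N => (1 : ℂ)) (eSet (principalBlock M N)) = 1 := by
        have := om_eSet (principalBlock M N) (⟨fun _ => 1, isIrrCharacter_one⟩ : IrrCharacter N)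
        rw [if_pos one_mem_principalBlock] at this
        exact this
      rw [om_one_eq_ag, ag] at h4
      rw [← h4]
      exact Finset.sum_congr rfl fun n _ => coeff_embK_mem _ n
    have h2 := sameBlock_om (isIrrCharacter_one (G := G)) ψ.2 hψ hc heS
    rw [h1] at h2
    rcases om_idem hc hee ψ with h3 | h3
    · rw [h3, sub_zero] at h2
      exact absurd h2 not_memLocalIdeal_one
    · rw [h3, one_mul]
  · rw [mul_zero]

theorem eth_mul_E {θ : IrrCharacter N} (hθ : θ ∉ principalBlock M N) : eth N θ * eSet (principalBlock M G) = 0 := by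
  classical
  rw [← eN_mul (N := N), ← mul_assoc, eth, ← map_mul]
  have h1 : eSet {θ} * eSet (principalBlock M N) = 0 := by
    refine cen_ext ((isCen_eSet _).mul (isCen_eSet _)) isCen_zero fun ψ => ?_
    rw [om_mul ψ.2 (isCen_eSet _), om_eSet, om_eSet, om_zero]
    by_cases h : ψ ∈ ({θ} : Set (IrrCharacter N))
    · rw [if_neg (fun h' => hθ (Set.mem_singleton_iff.1 h ▸ h')), mul_zero]
    · rw [if_neg h, zero_mul]
  rw [h1, map_zero, zero_mul]

theorem p_le {P : Sylow p G} (hidx : ¬ p ∣ N.index) : (P : Subgroup G) ≤ N := by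
  intro x hx
  rw [← QuotientGroup.eq_one_iff]
  obtain ⟨k, hk⟩ := IsPGroup.iff_orderOf.1 P.isPGroup' ⟨x, hx⟩
  rw [Subgroup.orderOf_mk] at hk
  have h1 : orderOf (x : G ⧸ N) ∣ p ^ k := by rw [← hk]; exact orderOf_map_dvd (QuotientGroup.mk' N) x
  have h2 : orderOf (x : G ⧸ N) ∣ N.index := orderOf_dvd_natCard _
  have h3 : (p ^ k).Coprime N.index := Nat.Coprime.pow_left k (hp.out.coprime_iff_not_dvd.2 hidx)
  have h4 := Nat.eq_one_of_dvd_coprimes h3 h1 h2
  exact orderOf_eq_one_iff.1 h4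

theorem infl_one (hM : IsPModular p M) [Fintype (G ⧸ N)] {P : Sylow p G} (hidx : ¬ p ∣ N.index) {s : G ⧸ N → G} (hs : ∀ q, ((s q : G) : G ⧸ N) = q)
    (hsP : ∀ q, s q ∈ cz (P : Subgroup G)) {lam : IrrCharacter (G ⧸ N)} (h : inflI N lam ∈ principalBlock M G) :
    lam = irrOne (G ⧸ N) := by
  classical
  by_contra hne
  have h1 : classInner (lam : G ⧸ N → ℂ) (irrOne (G ⧸ N) : G ⧸ N → ℂ) = 0 :=
    classInner_irr_ne lam.2 (irrOne (G ⧸ N)).2 (fun h' => hne (Subtype.ext h'))
  have hcQ : (Nat.card (G ⧸ N) : ℂ) ≠ 0 := by exact_mod_cast Nat.card_pos.ne'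
  have h2 : ∑ q : G ⧸ N, (lam : G ⧸ N → ℂ) q = 0 := by
    rw [classInner_def] at h1
    have h3 := (mul_eq_zero.1 h1).resolve_left (inv_ne_zero hcQ)
    rw [← h3]
    refine Finset.sum_congr rfl fun q _ => ?_
    show _ = _ * conj (1 : ℂ)
    rw [map_one, mul_one]
  have hl1 : (lam : G ⧸ N → ℂ) 1 ≠ 0 := IsIrr.one_ne_zero lam.2
  have h3 : ∀ q : G ⧸ N, MemLocalIdeal M (1 - (lam : G ⧸ N → ℂ) q / (lam : G ⧸ N → ℂ) 1) := by
    intro q
    have h4 : MemLocalIdeal M (centralChar (fun _ : G => (1 : ℂ)) (s q) - centralChar (inflI N lam : G → ℂ) (s q)) := h (s q)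
    have h5 : ¬ p ∣ (Subgroup.centralizer ({s q} : Set G)).index := by
      intro hd
      apply P.not_dvd_index
      refine hd.trans (Subgroup.index_dvd_of_le ?_)
      intro x hx
      rw [Subgroup.mem_centralizer_singleton_iff]
      exact Subgroup.mem_centralizer_iff.1 (hsP q) x hx
    have h6 : ((Subgroup.centralizer ({s q} : Set G)).index : ℂ) ≠ 0 := by
      exact_mod_cast Subgroup.index_ne_zero_of_finite
    have h7 : 1 - (lam : G ⧸ N → ℂ) q / (lam : G ⧸ N → ℂ) 1 = ((Subgroup.centralizer ({s q} : Set G)).index : ℂ)⁻¹ *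
        (centralChar (fun _ : G => (1 : ℂ)) (s q) - centralChar (inflI N lam : G → ℂ) (s q)) := by
      rw [centralChar, centralChar, inflI_apply, inflI_apply, hs q, QuotientGroup.mk_one]
      field_simp
    rw [h7]
    exact MemLocalIdeal.mul_left (memLocalRing_natCast_inv hM h5) h4
  have h4 : MemLocalIdeal M (∑ q : G ⧸ N, (1 - (lam : G ⧸ N → ℂ) q / (lam : G ⧸ N → ℂ) 1)) := memLocalIdeal_sum _ _ fun q _ => h3 q
  rw [Finset.sum_sub_distrib, ← Finset.sum_div, h2, zero_div, sub_zero, Finset.sum_const, nsmul_eq_mul, mul_one,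
    Finset.card_univ, ← Nat.card_eq_fintype_card, memLocalIdeal_natCast_iff hM] at h4
  exact hidx h4

theorem ag_ccE (hM : IsPModular p M) [Fintype (G ⧸ N)] {P : Sylow p G} (hidx : ¬ p ∣ N.index) {s : G ⧸ N → G} (hs : ∀ q, ((s q : G) : G ⧸ N) = q)
    (hsP : ∀ q, s q ∈ cz (P : Subgroup G)) (q : G ⧸ N) :
    ag (cc N q (eSet (principalBlock M G))) = (Nat.card (G ⧸ N) : ℂ)⁻¹ := by
  classical
  have hcQ : (Nat.card (G ⧸ N) : ℂ) ≠ 0 := by exact_mod_cast Nat.card_pos.ne'
  set E := eSet (principalBlock M G) with hE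
  have hEc : IsCen E := isCen_eSet _
  set F : G ⧸ N → ℂ := fun q => ag (cc N q E) with hF
  have hFe : ∀ q, F q = ∑ g : G, if (g : G ⧸ N) = q then E.coeff g else 0 := fun q => rfl
  have hz : IsCen (mkA F) := by
    refine isCen_mkA fun x q => ?_
    obtain ⟨y, rfl⟩ := QuotientGroup.mk_surjective x
    rw [hFe, hFe, ← Equiv.sum_comp (MulAut.conj y).toEquiv]
    refine Finset.sum_congr rfl fun g _ => ?_
    have e1 : (MulAut.conj y).toEquiv g = y * g * y⁻¹ := rfl
    rw [e1, hEc y g]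
    have e2 : ((y * g * y⁻¹ : G) : G ⧸ N) = (y : G ⧸ N) * q * (y : G ⧸ N)⁻¹ ↔ (g : G ⧸ N) = q := by
      rw [QuotientGroup.mk_mul, QuotientGroup.mk_mul, QuotientGroup.mk_inv]
      constructor
      · intro h; exact mul_left_cancel (mul_right_cancel h)
      · intro h; rw [h]
    simp only [e2]
  have hz0 : IsCen (mkA (fun _ : G ⧸ N => (Nat.card (G ⧸ N) : ℂ)⁻¹)) := isCen_mkA fun x g => rfl
  have key : mkA F = mkA (fun _ : G ⧸ N => (Nat.card (G ⧸ N) : ℂ)⁻¹) := by
    refine cen_ext hz hz0 fun lam => ?_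
    have h1 : om (lam : G ⧸ N → ℂ) (mkA F) = om (inflI N lam : G → ℂ) E := by
      rw [om, om, ev_eq_sum, ev_eq_sum, inflI_apply, QuotientGroup.mk_one]
      congr 1
      have h2 : ∀ q : G ⧸ N, (mkA F).coeff q * (lam : G ⧸ N → ℂ) q = ∑ g : G, if (g : G ⧸ N) = q then E.coeff g * (lam : G ⧸ N → ℂ) (g : G ⧸ N) else 0 := by
        intro q
        rw [coeff_mkA, hFe, Finset.sum_mul]
        refine Finset.sum_congr rfl fun g _ => ?_
        split_ifs with hg
        · rw [hg]
        · rw [zero_mul]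
      rw [Finset.sum_congr rfl fun q _ => h2 q, Finset.sum_comm]
      refine Finset.sum_congr rfl fun g _ => ?_
      rw [Finset.sum_ite_eq Finset.univ (g : G ⧸ N), if_pos (Finset.mem_univ _)]
      rfl
    rw [h1, hE, om_eSet]
    have h3 : om (lam : G ⧸ N → ℂ) (mkA (fun _ : G ⧸ N => (Nat.card (G ⧸ N) : ℂ)⁻¹)) = if lam = irrOne (G ⧸ N) then 1 else 0 := by
      rw [om, ev_eq_sum]
      simp only [coeff_mkA]
      rw [← Finset.mul_sum]
      have h4 : (Nat.card (G ⧸ N) : ℂ)⁻¹ * ∑ q : G ⧸ N, (lam : G ⧸ N → ℂ) q = classInner (lam : G ⧸ N → ℂ) (irrOne (G ⧸ N) : G ⧸ N → ℂ) := by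
        rw [classInner_def]
        congr 1
        refine Finset.sum_congr rfl fun q _ => ?_
        show _ = _ * conj (1 : ℂ)
        rw [map_one, mul_one]
      rw [h4]
      split_ifs with hl
      · rw [hl, classInner_irr_self (irrOne (G ⧸ N)).2]
        show (1 : ℂ) / 1 = 1
        rw [div_one]
      · rw [classInner_irr_ne lam.2 (irrOne (G ⧸ N)).2 (fun h' => hl (Subtype.ext h')), zero_div]
    rw [h3]
    by_cases hl : lam = irrOne (G ⧸ N)
    · rw [if_pos hl, if_pos]
      rw [hl]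
      have : inflI N (irrOne (G ⧸ N)) = (⟨fun _ => 1, isIrrCharacter_one⟩ : IrrCharacter G) := Subtype.ext rfl
      rw [this]; exact one_mem_principalBlock
    · rw [if_neg hl, if_neg (fun h => hl (infl_one hM hidx hs hsP h))]
  have := congrArg (fun z : MonoidAlgebra ℂ (G ⧸ N) => z.coeff q) key
  exact this

end Facts

end CfsgIso
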