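import Cfsg.Agent.H4.Iso5

set_option autoImplicit false
set_option linter.all false

/-! # Isomorphic principal blocks, the theorem -/

open Cfsg MonoidAlgebra
open CfsgH4 hiding centralChar sum_conj regInner_symm
open CfsgH5 hiding ev_ca
open ComplexConjugate

namespace CfsgIso

section Final

variable {G : Type*} [Group G] [Fintype G] {M : Ideal AlgInt} [hMp : M.IsPrime] {p : ℕ} [hp : Fact p.Prime]
variable {N : Subgroup G} [hN : N.Normal]

theorem exists_over (hM : IsPModular p M) [Fintype (G ⧸ N)] [Fintype N] {P : Sylow p G} (hidx : ¬ p ∣ N.index) {s : G ⧸ N → G}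
    (hs : ∀ q, ((s q : G) : G ⧸ N) = q) (hsP : ∀ q, s q ∈ cz (P : Subgroup G)) {θ : IrrCharacter N} (hθ : θ ∈ principalBlock M N) :
    ∃ χ ∈ principalBlock M G, classInner (fun n : N => (χ : G → ℂ) n) (θ : N → ℂ) ≠ 0 := by
  classical
  by_contra hcon
  push Not at hcon
  set E := eSet (principalBlock M G) with hE
  have hES : InS M E := inS_eSet isPBlock_principal
  have hfE : Fx N E := fun x _ g => isCen_eSet _ x g
  have h1 := sth_cong hθ (sc_cc (1 : G ⧸ N) E).sup (fx_cc 1 hfE) (inS_cc 1 hES)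
  rw [ag_ccE hM hidx hs hsP] at h1
  have h2 : sth N θ (cc N 1 E) = 0 := by
    rw [sth, om, ev_eq_sum]
    have h3 : ∑ n : N, (rsK N (cc N 1 E)).coeff n * (θ : N → ℂ) n = 0 := by
      have h4 : ∀ n : N, (rsK N (cc N 1 E)).coeff n * (θ : N → ℂ) n =
          ∑ χ : IrrCharacter G, (if χ ∈ principalBlock M G then (Nat.card G : ℂ)⁻¹ * (χ : G → ℂ) 1 * ((θ : N → ℂ) n * conj ((χ : G → ℂ) n)) else 0) := by
        intro n
        rw [coeff_rsK, cc, coeff_mkA, if_pos ((QuotientGroup.eq_one_iff _).2 n.2), hE, coeff_eSet, blockCoeff_eq, Finset.mul_sum, Finset.sum_mul]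
        refine Finset.sum_congr rfl fun χ _ => ?_
        split_ifs
        · rw [IsCharacter.inv_eq (IsIrr.isCharacter χ.2)]; ring
        · rw [mul_zero, zero_mul]
      rw [Finset.sum_congr rfl fun n _ => h4 n, Finset.sum_comm]
      refine Finset.sum_eq_zero fun χ _ => ?_
      split_ifs with hχ
      · rw [← Finset.mul_sum]
        have h5 := hcon χ hχ
        have h6 : classInner (θ : N → ℂ) (fun n : N => (χ : G → ℂ) n) = 0 := by
          rw [← classInner_conj_symm, h5, map_zero]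
        rw [classInner_def] at h6
        have hcN : (Nat.card N : ℂ) ≠ 0 := by exact_mod_cast Nat.card_pos.ne'
        rw [(mul_eq_zero.1 h6).resolve_left (inv_ne_zero hcN), mul_zero]
      · exact Finset.sum_const_zero
    rw [h3, zero_div]
  rw [h2, resid_zero] at h1
  have hf : ¬ p ∣ Nat.card (G ⧸ N) := hidx
  have hcQ : (Nat.card (G ⧸ N) : ℂ) ≠ 0 := by exact_mod_cast Nat.card_pos.ne'
  have h3 : resid M ((Nat.card (G ⧸ N) : ℂ)⁻¹) * resid M (Nat.card (G ⧸ N) : ℂ) = 1 := by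
    rw [← resid_mul (memLocalRing_natCast_inv hM hf) (memLocalRing_natCast _), inv_mul_cancel₀ hcQ, resid_one]
  rw [← h1, zero_mul] at h3
  exact zero_ne_one h3

theorem main (hM : IsPModular p M) (hidx : ¬ p ∣ N.index) (P : Sylow p G) (hsup : N ⊔ cz (P : Subgroup G) = ⊤) :
    (∀ χ ∈ principalBlock M G, ∃ θ ∈ principalBlock M N, ∀ n : N, (χ : G → ℂ) n = (θ : N → ℂ) n) ∧
    ∀ θ ∈ principalBlock M N, ∃! χ : IrrCharacter G, χ ∈ principalBlock M G ∧ ∀ n : N, (χ : G → ℂ) n = (θ : N → ℂ) n := by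
  classical
  haveI : Fintype N := Fintype.ofFinite _
  haveI : Fintype (G ⧸ N) := Fintype.ofFinite _
  have hPN : (P : Subgroup G) ≤ N := p_le hidx
  have hPi : ¬ p ∣ (P : Subgroup G).relIndex N := by
    intro hd
    apply P.not_dvd_index
    rw [← Subgroup.relIndex_mul_index hPN]
    exact hd.mul_right _
  have hrep : ∀ q : G ⧸ N, ∃ x : G, ((x : G) : G ⧸ N) = q ∧ x ∈ cz (P : Subgroup G) := by
    intro q
    obtain ⟨g, rfl⟩ := QuotientGroup.mk_surjective q
    have h1 : g ∈ N ⊔ cz (P : Subgroup G) := by rw [hsup]; trivial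
    obtain ⟨n, hn, x, hx, rfl⟩ := Subgroup.mem_sup_of_normal_left.1 h1
    refine ⟨x, ?_, hx⟩
    rw [QuotientGroup.mk_mul, (QuotientGroup.eq_one_iff n).2 hn, one_mul]
  choose s hs hsP using hrep
  set E := eSet (principalBlock M G) with hE
  have hEc : IsCen E := isCen_eSet _
  have hES : InS M E := inS_eSet isPBlock_principal
  have hEE : E * E = E := eSet_mul_self _
  have hsc : ∀ θ ∈ principalBlock M N, _ := fun θ hθ => exists_scal hM hs (fun q => ag_cu hPN hPi (hsP q))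
    (fun q => ag_cu hPN hPi ((cz (P : Subgroup G)).inv_mem (hsP q))) hEc hES hEE (ag_ccE hM hidx hs hsP) hθ
  have hiso : ∀ χ ∈ principalBlock M G, ∀ ψ ∈ principalBlock M G,
      classInner (fun n : N => (ψ : G → ℂ) n) (fun n : N => (χ : G → ℂ) n) = classInner (ψ : G → ℂ) (χ : G → ℂ) := by
    intro χ hχ ψ hψ
    exact res_iso hs hEc (fun θ hθ => (hsc θ hθ).1) (fun θ hθ => (hsc θ hθ).2) (fun θ hθ => eth_mul_E hθ)
      (by rw [hE, om_eSet, if_pos hχ]) (by rw [hE, om_eSet, if_pos hψ])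
  have hres : ∀ χ ∈ principalBlock M G, ∃ θ ∈ principalBlock M N, ∀ n : N, (χ : G → ℂ) n = (θ : N → ℂ) n := by
    intro χ hχ
    have h1 := hiso χ hχ χ hχ
    rw [classInner_irr_self χ.2] at h1
    have hirr := isIrr_of_norm_one (isCharacter_restrict N (IsIrr.isCharacter χ.2)) h1
    set θ : IrrCharacter N := ⟨fun n : N => (χ : G → ℂ) n, hirr⟩ with hθ
    refine ⟨θ, ?_, fun n => rfl⟩
    by_contra hnot
    have h2 := eth_mul_E (M := M) hnot
    have h3 : ev (χ : G → ℂ) (E * eth N θ) = ev (χ : G → ℂ) (eth N θ) := by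
      rw [ev_cen_mul χ.2 hEc, hE, om_eSet, if_pos hχ, one_mul]
    have h4 : E * eth N θ = eth N θ * E :=
      (show Fx (⊤ : Subgroup G) E from fun x _ g => hEc x g).comm_sup (fun g hg => absurd trivial hg)
    rw [h4, h2, map_zero] at h3
    have h5 : ev (χ : G → ℂ) (eth N θ) = ev (θ : N → ℂ) (eSet {θ}) := by
      have h6 := ev_embK_mul (χ : G → ℂ) (eSet {θ}) (1 : G)
      have h7 : embK N (eSet {θ}) * single (1 : G) (1 : ℂ) = eth N θ := by
        rw [eth]; exact mul_one _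
      rw [h7] at h6
      rw [h6, ev_eq_sum]
      refine Finset.sum_congr rfl fun n _ => ?_
      rw [mul_one]
    rw [h5] at h3
    have h8 := om_eSet {θ} θ
    rw [if_pos (Set.mem_singleton θ), om, ← h3, zero_div] at h8
    exact zero_ne_one h8
  refine ⟨hres, fun θ hθ => ?_⟩
  obtain ⟨χ, hχ, hne⟩ := exists_over hM hidx hs hsP hθ
  obtain ⟨θ', hθ', hn⟩ := hres χ hχ
  have h1 : (fun n : N => (χ : G → ℂ) n) = (θ' : N → ℂ) := funext hn
  rw [h1] at hne
  have h2 : (θ' : N → ℂ) = (θ : N → ℂ) := by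
    by_contra h
    exact hne (classInner_irr_ne θ'.2 θ.2 h)
  refine ⟨χ, ⟨hχ, fun n => by rw [hn n, h2]⟩, ?_⟩
  rintro ψ ⟨hψ, hψn⟩
  by_contra hcon
  have h3 := hiso χ hχ ψ hψ
  have h4 : (fun n : N => (ψ : G → ℂ) n) = (fun n : N => (χ : G → ℂ) n) := by
    funext n
    rw [hψn n, hn n, h2]
  rw [h4, classInner_irr_ne ψ.2 χ.2 (fun h => hcon (Subtype.ext h)), h1, classInner_irr_self θ'.2] at h3
  exact one_ne_zero h3

end Final

end CfsgIso
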