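import Cfsg.Prelude

set_option autoImplicit false
set_option linter.all false

namespace CfsgH4

open Subgroup

/-- normal subgroup of prime index: `[P : P'] * |N'| = p * c(x)` -/
theorem index_commutator_mul {P : Type*} [Group P] [Finite P] {p : ℕ} (hp : p.Prime) (N : Subgroup P)
    [hNn : N.Normal] (hN : N.index = p) {x : P} (hx : x ∉ N) :
    (commutator P).index * Nat.card (commutator N) =
      p * Nat.card {n : N // x * n * x⁻¹ * (n : P)⁻¹ ∈ (commutator N).map N.subtype} := by
  classical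
  have hc : ∀ n : N, x * n * x⁻¹ * (n : P)⁻¹ ∈ N := fun n =>
    N.mul_mem (hNn.conj_mem n n.2 x) (N.inv_mem n.2)
  -- conjugation
  have hcomm : ∀ a b : Abelianization N, a * b = b * a := fun a b => mul_comm a b
  have hfwd : ∀ (a b : N), Abelianization.of a = Abelianization.of b ↔ a * b⁻¹ ∈ commutator N := by
    intro a b
    rw [Abelianization.of]
    show (QuotientGroup.mk a : N ⧸ commutator N) = QuotientGroup.mk b ↔ _
    rw [QuotientGroup.eq]
    constructor
    · intro h
      have h2 := (inferInstance : (commutator N).Normal).mem_comm h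
      have h3 := (commutator N).inv_mem h2
      rwa [mul_inv_rev, inv_inv] at h3
    · intro h
      have h3 := (commutator N).inv_mem h
      rw [mul_inv_rev, inv_inv] at h3
      exact (inferInstance : (commutator N).Normal).mem_comm h3
  let φ : N →* Abelianization N :=
    { toFun := fun n => Abelianization.of ⟨x * n * x⁻¹ * (n : P)⁻¹, hc n⟩
      map_one' := by
        have : (⟨x * ((1 : N) : P) * x⁻¹ * ((1 : N) : P)⁻¹, hc 1⟩ : N) = 1 := by
          apply Subtype.ext; simp
        rw [this, map_one]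
      map_mul' := by
        intro a b
        have h1 : (⟨x * ((a * b : N) : P) * x⁻¹ * ((a * b : N) : P)⁻¹, hc (a * b)⟩ : N) =
            ⟨x * a * x⁻¹, hNn.conj_mem a a.2 x⟩ * ⟨x * b * x⁻¹ * (b : P)⁻¹, hc b⟩ * a⁻¹ := by
          apply Subtype.ext
          simp only [Subgroup.coe_mul, InvMemClass.coe_inv]
          group
        have h2 : (⟨x * a * x⁻¹ * (a : P)⁻¹, hc a⟩ : N) = ⟨x * a * x⁻¹, hNn.conj_mem a a.2 x⟩ * a⁻¹ := by
          apply Subtype.ext; simp
        rw [h1, h2]
        simp only [map_mul]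
        rw [mul_right_comm] }
  have hφ : ∀ n : N, φ n = Abelianization.of ⟨x * n * x⁻¹ * (n : P)⁻¹, hc n⟩ := fun n => rfl
  have hker : ∀ n : N, n ∈ φ.ker ↔ x * n * x⁻¹ * (n : P)⁻¹ ∈ (commutator N).map N.subtype := by
    intro n
    rw [MonoidHom.mem_ker, hφ]
    have h1 := hfwd ⟨x * n * x⁻¹ * (n : P)⁻¹, hc n⟩ 1
    rw [map_one, inv_one, mul_one] at h1
    rw [h1, Subgroup.mem_map]
    constructor
    · intro h; exact ⟨_, h, rfl⟩
    · rintro ⟨y, hy, he⟩
      have : y = ⟨x * n * x⁻¹ * (n : P)⁻¹, hc n⟩ := Subtype.ext he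
      rw [← this]; exact hy
  -- the preimage R of the range
  let R : Subgroup N := φ.range.comap Abelianization.of
  have hRcomm : commutator N ≤ R := by
    intro y hy
    show Abelianization.of y ∈ φ.range
    have h1 := (hfwd y 1).2 (by rwa [inv_one, mul_one])
    rw [h1, map_one]; exact φ.range.one_mem
  let R' : Subgroup P := R.map N.subtype
  have hR'mem : ∀ (y : P) (hy : y ∈ N), y ∈ R' ↔ ∃ n : N, Abelianization.of ⟨y, hy⟩ = φ n := by
    intro y hy
    constructor
    · rintro ⟨z, hz, rfl⟩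
      obtain ⟨n, hn⟩ := hz
      exact ⟨n, hn.symm⟩
    · rintro ⟨n, hn⟩
      exact ⟨⟨y, hy⟩, ⟨n, hn.symm⟩, rfl⟩
  -- every element of P is x^k n
  have hgen : ∀ g : P, ∃ (k : ℤ) (n : P), n ∈ N ∧ g = x ^ k * n := by
    intro g
    haveI := Fact.mk hp
    have hcard : Nat.card (P ⧸ N) = p := hN
    have hx1 : (x : P ⧸ N) ≠ 1 := fun h => hx ((QuotientGroup.eq_one_iff x).1 h)
    have htop := zpowers_eq_top_of_prime_card hcard hx1
    have hm : (g : P ⧸ N) ∈ Subgroup.zpowers (x : P ⧸ N) := by rw [htop]; trivial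
    obtain ⟨k, hk⟩ := hm
    refine ⟨k, (x ^ k)⁻¹ * g, ?_, by group⟩
    apply (QuotientGroup.eq_one_iff _).1
    simp only at hk
    rw [QuotientGroup.mk_mul, QuotientGroup.mk_inv, QuotientGroup.mk_zpow, hk, inv_mul_cancel]
  -- conj by N elements trivial on abelianization
  have hNconj : ∀ (m y : N), Abelianization.of (m * y * m⁻¹) = Abelianization.of y := by
    intro m y
    rw [map_mul, map_mul, map_inv, mul_comm (Abelianization.of m), mul_inv_cancel_right]
  have hR'N : R' ≤ N := by rintro _ ⟨z, -, rfl⟩; exact z.2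
  have hxR : ∀ y ∈ R', x * y * x⁻¹ ∈ R' := by
    intro y hy
    have hyN := hR'N hy
    obtain ⟨n, hn⟩ := (hR'mem y hyN).1 hy
    refine (hR'mem _ (hNn.conj_mem y hyN x)).2 ⟨⟨x * n * x⁻¹, hNn.conj_mem n n.2 x⟩, ?_⟩
    rw [hφ] at hn ⊢
    rw [hfwd] at hn ⊢
    have h1 : ((⟨x * y * x⁻¹, hNn.conj_mem y hyN x⟩ : N) *
        (⟨x * (x * n * x⁻¹) * x⁻¹ * (x * n * x⁻¹)⁻¹, hc ⟨x * n * x⁻¹, hNn.conj_mem n n.2 x⟩⟩ : N)⁻¹ : N) =
        ⟨x * ((⟨y, hyN⟩ : N) * (⟨x * n * x⁻¹ * (n : P)⁻¹, hc n⟩ : N)⁻¹ : N) * x⁻¹,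
          hNn.conj_mem _ (Subtype.mem _) x⟩ := by
      apply Subtype.ext
      simp only [Subgroup.coe_mul, InvMemClass.coe_inv]
      group
    rw [h1]
    -- commutator N is characteristic
    have h2 : ∀ z ∈ commutator N, (⟨x * (z : P) * x⁻¹, hNn.conj_mem _ z.2 x⟩ : N) ∈ commutator N := by
      intro z hz
      have h3 : (commutator N).map (MulAut.conjNormal x : MulAut N).toMonoidHom = commutator N :=
        Subgroup.characteristic_iff_map_eq.1 inferInstance _
      rw [← h3]
      exact ⟨z, hz, by apply Subtype.ext; simp [MulAut.conjNormal_apply]⟩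
    exact h2 _ hn
  have hR'norm : R'.Normal := by
    -- x normalizes, N normalizes
    have hxn : x ∈ Subgroup.normalizer (R' : Set P) := by
      -- finite: injective conj map into itself
      have h1 : R'.map (MulAut.conj x).toMonoidHom = R' := by
        apply Subgroup.eq_of_le_of_card_ge
        · rintro _ ⟨y, hy, rfl⟩; exact hxR y hy
        · exact le_of_eq (Subgroup.card_map_of_injective (f := (MulAut.conj x).toMonoidHom)
            (MulAut.conj x).injective).symm
      rw [Subgroup.mem_normalizer_iff]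
      intro y
      constructor
      · exact fun hy => hxR y hy
      · intro hy
        rw [← h1] at hy
        obtain ⟨z, hz, he⟩ := hy
        have : z = y := (MulAut.conj x).injective he
        rwa [← this]
    have hNN : ∀ m ∈ N, ∀ y ∈ R', m * y * m⁻¹ ∈ R' := by
      intro m hm y hy
      have hyN := hR'N hy
      obtain ⟨n, hn⟩ := (hR'mem y hyN).1 hy
      refine (hR'mem _ (hNn.conj_mem y hyN m)).2 ⟨n, ?_⟩
      rw [← hn, ← hNconj ⟨m, hm⟩ ⟨y, hyN⟩]
      rfl
    constructor
    intro y hy g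
    obtain ⟨k, n, hn, rfl⟩ := hgen g
    have h1 : n * y * n⁻¹ ∈ R' := hNN n hn y hy
    have h2 := ((Subgroup.mem_normalizer_iff).1 ((Subgroup.normalizer (R' : Set P)).zpow_mem hxn k) _).1 h1
    have h3 : x ^ k * n * y * (x ^ k * n)⁻¹ = x ^ k * (n * y * n⁻¹) * (x ^ k)⁻¹ := by group
    rw [h3]; exact h2
  have hle : commutator P ≤ R' := by
    haveI := hR'norm
    -- quotient P / R' commutative
    have hq : ∀ a b : P ⧸ R', a * b = b * a := by
      have hxN : ∀ n ∈ N, (x : P ⧸ R') * n = n * x := by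
        intro n hn
        rw [← QuotientGroup.mk_mul, ← QuotientGroup.mk_mul, QuotientGroup.eq]
        have h1 : x⁻¹ * (x * n * x⁻¹ * n⁻¹)⁻¹ * x ∈ R' := by
          have h2 : (x * n * x⁻¹ * n⁻¹) ∈ R' := (hR'mem _ (hc ⟨n, hn⟩)).2 ⟨⟨n, hn⟩, rfl⟩
          have := hR'norm.conj_mem _ (R'.inv_mem h2) x⁻¹
          rwa [inv_inv] at this
        have h4 : (x * n)⁻¹ * (n * x) = n⁻¹ * ((x⁻¹ * (x * n * x⁻¹ * n⁻¹)⁻¹ * x)) * n := by group
        have h5 := hR'norm.conj_mem _ h1 n⁻¹
        rw [inv_inv] at h5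
        rw [h4]; exact h5
      have hNN : ∀ n ∈ N, ∀ m ∈ N, (n : P ⧸ R') * m = m * n := by
        intro n hn m hm
        rw [← QuotientGroup.mk_mul, ← QuotientGroup.mk_mul, QuotientGroup.eq]
        refine ⟨⟨(n * m)⁻¹ * (m * n), N.mul_mem (N.inv_mem (N.mul_mem hn hm)) (N.mul_mem hm hn)⟩, ?_, rfl⟩
        apply hRcomm
        have h1 := (hfwd ((⟨n, hn⟩ * ⟨m, hm⟩)⁻¹) ((⟨m, hm⟩ * ⟨n, hn⟩ : N)⁻¹)).1 (by
          rw [map_inv, map_inv, map_mul, map_mul, mul_comm])
        rw [inv_inv] at h1
        exact h1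
      have hxk : ∀ (k : ℤ), ∀ n ∈ N, ((x : P ⧸ R') ^ k) * n = n * (x : P ⧸ R') ^ k := by
        intro k n hn
        exact (Commute.zpow_left (show Commute (x : P ⧸ R') n from hxN n hn) k).eq
      intro a b
      induction a using QuotientGroup.induction_on with | _ g =>
      induction b using QuotientGroup.induction_on with | _ h =>
      obtain ⟨k, n, hn, rfl⟩ := hgen g
      obtain ⟨l, m, hm, rfl⟩ := hgen h
      simp only [QuotientGroup.mk_mul, QuotientGroup.mk_zpow]
      have e1 : Commute ((x : P ⧸ R') ^ k) n := hxk k n hn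
      have e2 : Commute ((x : P ⧸ R') ^ l) m := hxk l m hm
      have e3 : Commute ((x : P ⧸ R') ^ k) m := hxk k m hm
      have e4 : Commute ((x : P ⧸ R') ^ l) n := hxk l n hn
      have e5 : Commute (n : P ⧸ R') m := hNN n hn m hm
      have e6 : Commute ((x : P ⧸ R') ^ k) ((x : P ⧸ R') ^ l) := (Commute.refl _).zpow_zpow k l
      exact ((e6.mul_right e3).mul_left (e4.symm.mul_right e5)).eq
    rw [_root_.commutator_def, Subgroup.commutator_le]
    intro a _ b _
    rw [commutatorElement_def, ← QuotientGroup.eq_one_iff]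
    simp only [QuotientGroup.mk_mul, QuotientGroup.mk_inv]
    rw [hq (a : P ⧸ R') b]
    group
  have heq : commutator P = R' := by
    refine le_antisymm hle ?_
    rintro _ ⟨z, ⟨n, hn⟩, rfl⟩
    have h1 := (hfwd z ⟨x * n * x⁻¹ * (n : P)⁻¹, hc n⟩).1 (by rw [← hn, hφ])
    have h2 : ((z * (⟨x * n * x⁻¹ * (n : P)⁻¹, hc n⟩ : N)⁻¹ : N) : P) ∈ commutator P := by
      have h3 : (commutator N).map N.subtype ≤ commutator P := by
        rw [_root_.commutator_def, _root_.commutator_def, Subgroup.map_commutator]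
        exact Subgroup.commutator_mono le_top le_top
      exact h3 ⟨_, h1, rfl⟩
    have h4 : x * n * x⁻¹ * (n : P)⁻¹ ∈ commutator P := by
      rw [_root_.commutator_def]
      exact Subgroup.commutator_mem_commutator (Subgroup.mem_top _) (Subgroup.mem_top _)
    have h5 : (z : P) = ((z * (⟨x * n * x⁻¹ * (n : P)⁻¹, hc n⟩ : N)⁻¹ : N) : P) * (x * n * x⁻¹ * (n : P)⁻¹) := by
      simp only [Subgroup.coe_mul, InvMemClass.coe_inv]
      group
    show (z : P) ∈ _
    rw [h5]
    exact (commutator P).mul_mem h2 h4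
  -- cardinalities
  have hcR : Nat.card R' = Nat.card (commutator N) * Nat.card φ.range := by
    have h1 : Nat.card R' = Nat.card R := Subgroup.card_map_of_injective N.subtype_injective
    rw [h1]
    have h2 : Function.Surjective (Abelianization.of : N →* Abelianization N) := QuotientGroup.mk_surjective
    have h3 : R.index = φ.range.index := Subgroup.index_comap_of_surjective _ h2
    have h4 := Subgroup.card_mul_index R
    have h5 := Subgroup.card_mul_index φ.range
    have h6 := Subgroup.card_mul_index (commutator N)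
    have h7 : (commutator N).index = Nat.card (Abelianization N) := rfl
    have hpos : 0 < R.index := Nat.pos_of_ne_zero Subgroup.index_ne_zero_of_finite
    apply Nat.eq_of_mul_eq_mul_right hpos
    rw [h4, ← h6, h7, ← h5, h3]; ring
  have hcφ : Nat.card φ.range * Nat.card φ.ker = Nat.card N := by
    rw [mul_comm]
    have h1 := Subgroup.card_mul_index φ.ker
    rw [← h1, Subgroup.index_ker]
  have hk : Nat.card φ.ker = Nat.card {n : N // x * n * x⁻¹ * (n : P)⁻¹ ∈ (commutator N).map N.subtype} :=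
    Nat.card_congr (Equiv.subtypeEquivRight hker)
  rw [← hk]
  have hP : Nat.card (commutator P) * (commutator P).index = Nat.card P := Subgroup.card_mul_index _
  have hP2 : Nat.card N * p = Nat.card P := by rw [← hN]; exact Subgroup.card_mul_index _
  rw [heq, hcR] at hP
  rw [heq]
  have hpos : 0 < Nat.card φ.range := Nat.card_pos
  apply Nat.eq_of_mul_eq_mul_left hpos
  calc Nat.card φ.range * (R'.index * Nat.card (commutator N))
      = Nat.card (commutator N) * Nat.card φ.range * R'.index := by ring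
    _ = Nat.card P := hP
    _ = Nat.card N * p := hP2.symm
    _ = (Nat.card φ.range * Nat.card φ.ker) * p := by rw [hcφ]
    _ = Nat.card φ.range * (p * Nat.card φ.ker) := by ring

end CfsgH4
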