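import Cfsg.Agent.H4.Pidx
import Cfsg.Agent.H3.MaxCl2
import Cfsg.Agent.H1.MaxClass

set_option autoImplicit false
set_option linter.all false

namespace CfsgH4

open Subgroup

/-- a finite p-group with center of prime index or full is abelian -/
theorem comm_of_index_center_le {A : Type*} [Group A] [Finite A] {p : ℕ} (hp : p.Prime)
    (h : (Subgroup.center A).index ∣ p) (a b : A) : a * b = b * a := by
  rcases (Nat.dvd_prime hp).1 h with h1 | h1
  · have h2 : Subgroup.center A = ⊤ := Subgroup.index_eq_one.1 h1
    have : b ∈ Subgroup.center A := by rw [h2]; trivial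
    exact Subgroup.mem_center_iff.1 this a
  · haveI := Fact.mk hp
    haveI : IsCyclic (A ⧸ Subgroup.center A) := isCyclic_of_prime_card (p := p) (by
      rw [← h1]; rfl)
    exact commutative_of_cyclic_center_quotient (QuotientGroup.mk' (Subgroup.center A))
      (by rw [QuotientGroup.ker_mk']) a b

theorem index_commutator_of_abelian {P : Type*} [Group P] [Finite P] {p : ℕ} (hp : p.Prime)
    (N : Subgroup P) [hNn : N.Normal] (hN : N.index = p) (hab : ∀ a ∈ N, ∀ b ∈ N, a * b = b * a)
    (hZ : Subgroup.center P ≤ N) :
    (commutator P).index = p * Nat.card (Subgroup.center P) := by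
  obtain ⟨x, hx⟩ : ∃ x : P, x ∉ N := by
    by_contra hcon
    push Not at hcon
    have : N = ⊤ := (Subgroup.eq_top_iff' N).2 hcon
    rw [this, Subgroup.index_top] at hN
    exact hp.one_lt.ne hN
  have hcN : commutator N = ⊥ := by
    rw [eq_bot_iff, _root_.commutator_def, Subgroup.commutator_le]
    intro a _ b _
    rw [Subgroup.mem_bot, commutatorElement_def]
    have h1 : a * b = b * a := Subtype.ext (hab a a.2 b b.2)
    rw [h1]; group
  have h := index_commutator_mul hp N hN hx
  rw [hcN, Subgroup.card_bot, mul_one] at h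
  rw [h]
  congr 1
  -- every element is x^k n
  have hgen : ∀ g : P, ∃ (k : ℤ) (n : P), n ∈ N ∧ g = x ^ k * n := by
    intro g
    haveI := Fact.mk hp
    have hcard : Nat.card (P ⧸ N) = p := hN
    have hx1 : (x : P ⧸ N) ≠ 1 := fun h => hx ((QuotientGroup.eq_one_iff x).1 h)
    have htop := zpowers_eq_top_of_prime_card hcard hx1
    have hm : (g : P ⧸ N) ∈ Subgroup.zpowers (x : P ⧸ N) := by rw [htop]; trivial
    obtain ⟨k, hk⟩ := hm
    refine ⟨k, (x ^ k)⁻¹ * g, ?_, by group⟩
    apply (QuotientGroup.eq_one_iff _).1
    simp only at hk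
    rw [QuotientGroup.mk_mul, QuotientGroup.mk_inv, QuotientGroup.mk_zpow, hk, inv_mul_cancel]
  have hiff : ∀ n : N, (x * n * x⁻¹ * (n : P)⁻¹ ∈ (⊥ : Subgroup N).map N.subtype) ↔ (n : P) ∈ Subgroup.center P := by
    intro n
    rw [Subgroup.map_bot, Subgroup.mem_bot, Subgroup.mem_center_iff]
    constructor
    · intro h1 g
      obtain ⟨k, m, hm, rfl⟩ := hgen g
      have h2 : Commute x n := by
        have : x * n = (x * n * x⁻¹ * (n : P)⁻¹) * (n * x) := by group
        rw [h1, one_mul] at this
        exact this
      have h3 : Commute (x ^ k) n := h2.zpow_left k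
      have h4 : Commute m n := hab m hm n n.2
      exact (h3.mul_left h4).eq
    · intro h1
      rw [h1 x]; group
  refine Nat.card_congr ?_
  refine (Equiv.subtypeEquivRight hiff).trans ?_
  exact ⟨fun y => ⟨y.1.1, y.2⟩, fun z => ⟨⟨z.1, hZ z.2⟩, z.2⟩, fun y => rfl, fun z => rfl⟩

theorem p4_iff {P : Type*} [Group P] [Finite P] (p : ℕ) [hpf : Fact p.Prime] (hP : Nat.card P = p ^ 4) :
    Nat.card (commutator P) = p ↔ (Subgroup.center P).index = p ^ 2 := by
  classical
  have hp := hpf.out
  have hPg : IsPGroup p P := IsPGroup.of_card hP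
  have hpos : 0 < p := hp.pos
  haveI : Nontrivial P := by
    apply Finite.one_lt_card_iff_nontrivial.1
    rw [hP]; exact Nat.one_lt_pow (by norm_num) hp.one_lt
  -- center nontrivial
  have hZnt : Nat.card (Subgroup.center P) ≠ 1 := by
    haveI := hPg.center_nontrivial
    exact (Finite.one_lt_card_iff_nontrivial.2 inferInstance).ne'
  -- main: from noncentral x with |C(x)| = p^3
  have main : ∀ x : P, x ∉ Subgroup.center P → Nat.card (Subgroup.centralizer ({x} : Set P)) = p ^ 3 →
      (commutator P).index = p * Nat.card (Subgroup.center P) := by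
    intro x hx hc
    set A := Subgroup.centralizer ({x} : Set P) with hA
    have hidx : A.index = p := by
      have := Subgroup.card_mul_index A
      rw [hc, hP] at this
      exact Nat.eq_of_mul_eq_mul_left (pow_pos hpos 3) (by rw [this]; ring)
    haveI hAn : A.Normal := by
      apply Subgroup.normal_of_index_eq_minFac_card
      rw [hidx, hP, hp.pow_minFac (by norm_num)]
    have hZA : Subgroup.center P ≤ A := Subgroup.center_le_centralizer _
    refine index_commutator_of_abelian hp A hidx ?_ hZA
    -- center of A
    have h1 : (Subgroup.center A).index ∣ p := by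
      have hAg : IsPGroup p A := hPg.to_subgroup A
      have hlt : (Subgroup.center P).subgroupOf A < Subgroup.center A := by
        rw [SetLike.lt_iff_le_and_exists]
        constructor
        · intro z hz
          rw [Subgroup.mem_center_iff]
          intro g
          apply Subtype.ext
          exact Subgroup.mem_center_iff.1 (Subgroup.mem_subgroupOf.1 hz) g
        · refine ⟨⟨x, Subgroup.mem_centralizer_singleton_iff.2 rfl⟩, ?_, ?_⟩
          · rw [Subgroup.mem_center_iff]
            intro g
            apply Subtype.ext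
            exact (Subgroup.mem_centralizer_singleton_iff.1 g.2)
          · exact fun h => hx (Subgroup.mem_subgroupOf.1 h)
      have h2 := CfsgH3.card_mul_le_of_lt hAg hlt
      have h3 : Nat.card ((Subgroup.center P).subgroupOf A) = Nat.card (Subgroup.center P) :=
        Nat.card_congr (Subgroup.subgroupOfEquivOfLe hZA).toEquiv
      rw [h3] at h2
      obtain ⟨c, hc1⟩ := IsPGroup.iff_card.1 (hPg.to_subgroup (Subgroup.center P))
      have h4 : p ≤ Nat.card (Subgroup.center P) := by
        rw [hc1] at hZnt ⊢
        have : c ≠ 0 := by rintro rfl; simp at hZnt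
        calc p = p ^ 1 := (pow_one p).symm
          _ ≤ p ^ c := Nat.pow_le_pow_right hpos (by omega)
      have h5 : p ^ 2 ≤ Nat.card (Subgroup.center A) := by nlinarith
      have h6 := Subgroup.card_mul_index (Subgroup.center A)
      rw [hc] at h6
      have h7 : (Subgroup.center A).index ∣ p ^ 3 := Dvd.intro_left _ h6
      obtain ⟨d, hd, hde⟩ := (Nat.dvd_prime_pow hp).1 h7
      have h8 : d ≤ 1 := by
        by_contra hd2
        push Not at hd2
        rw [hde] at h6
        have h9 : p ^ 2 * p ^ 2 ≤ p ^ 3 := by
          rw [← h6]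
          exact Nat.mul_le_mul h5 (Nat.pow_le_pow_right hpos hd2)
        have h10 : p ^ 3 < p ^ 4 := Nat.pow_lt_pow_right hp.one_lt (by norm_num)
        rw [← pow_add] at h9
        exact absurd (lt_of_lt_of_le h10 h9) (lt_irrefl _)
      rw [hde]
      calc p ^ d ∣ p ^ 1 := pow_dvd_pow p h8
        _ = p := pow_one p
    intro a ha b hb
    have := comm_of_index_center_le hp h1 ⟨a, ha⟩ ⟨b, hb⟩
    exact congrArg Subtype.val this
  have hcm := Subgroup.card_mul_index (commutator P)
  have hzm := Subgroup.card_mul_index (Subgroup.center P)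
  rw [hP] at hcm hzm
  constructor
  · intro h
    -- nonabelian
    obtain ⟨x, hx⟩ : ∃ x : P, x ∉ Subgroup.center P := by
      by_contra hcon
      push Not at hcon
      have : commutator P = ⊥ := by
        rw [eq_bot_iff, _root_.commutator_def, Subgroup.commutator_le]
        intro a _ b _
        rw [Subgroup.mem_bot, commutatorElement_def]
        have h1 : a * b = b * a := (Subgroup.mem_center_iff.1 (hcon b) a)
        rw [h1]; group
      rw [this, Subgroup.card_bot] at h
      exact hp.one_lt.ne h
    set A := Subgroup.centralizer ({x} : Set P) with hA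
    -- index of A ≤ p
    have hle : A.index ≤ p := by
      -- injection P/A → commutator
      let f : P ⧸ A → commutator P := fun q => ⟨q.out * x * q.out⁻¹ * x⁻¹, by
        rw [_root_.commutator_def]
        exact Subgroup.commutator_mem_commutator (Subgroup.mem_top _) (Subgroup.mem_top _)⟩
      have hf : Function.Injective f := by
        intro q r hqr
        have h1 : q.out * x * q.out⁻¹ * x⁻¹ = r.out * x * r.out⁻¹ * x⁻¹ := congrArg Subtype.val hqr
        have h2 : q.out * x * q.out⁻¹ = r.out * x * r.out⁻¹ := mul_right_cancel h1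
        rw [← q.out_eq', ← r.out_eq']
        apply QuotientGroup.eq.2
        refine Subgroup.mem_centralizer_singleton_iff.2 ?_
        calc q.out⁻¹ * r.out * x = q.out⁻¹ * (r.out * x * r.out⁻¹) * r.out := by group
          _ = q.out⁻¹ * (q.out * x * q.out⁻¹) * r.out := by rw [h2]
          _ = x * (q.out⁻¹ * r.out) := by group
      have := Nat.card_le_card_of_injective f hf
      rw [h] at this
      exact this
    have hAp : A.index ∣ p ^ 4 := by rw [← hP]; exact Subgroup.index_dvd_card A
    obtain ⟨d, hd, hde⟩ := (Nat.dvd_prime_pow hp).1 hAp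
    have hA1 : A.index ≠ 1 := by
      intro h1
      apply hx
      have h2 := Subgroup.index_eq_one.1 h1
      rw [Subgroup.mem_center_iff]
      intro g
      have : g ∈ A := by rw [h2]; trivial
      exact Subgroup.mem_centralizer_singleton_iff.1 this
    have hd1 : d = 1 := by
      rw [hde] at hle hA1
      have h1 : d ≤ 1 := by
        by_contra h2
        push Not at h2
        have h3 : p ^ 1 < p ^ d := Nat.pow_lt_pow_right hp.one_lt h2
        rw [pow_one] at h3
        omega
      have : d ≠ 0 := by rintro rfl; simp at hA1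
      omega
    rw [hd1, pow_one] at hde
    have hAc : Nat.card A = p ^ 3 := by
      have := Subgroup.card_mul_index A
      rw [hde, hP] at this
      exact Nat.eq_of_mul_eq_mul_right hpos (by rw [this]; ring)
    have h3 := main x hx hAc
    rw [h] at hcm
    have h4 : (commutator P).index = p ^ 3 := Nat.eq_of_mul_eq_mul_left hpos (by rw [hcm]; ring)
    rw [h4] at h3
    have h5 : Nat.card (Subgroup.center P) = p ^ 2 := Nat.eq_of_mul_eq_mul_left hpos (by rw [← h3]; ring)
    rw [h5] at hzm
    exact Nat.eq_of_mul_eq_mul_left (pow_pos hpos 2) (by rw [hzm]; ring)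
  · intro h
    rw [h] at hzm
    have hZc : Nat.card (Subgroup.center P) = p ^ 2 := Nat.eq_of_mul_eq_mul_right (pow_pos hpos 2) (by rw [hzm]; ring)
    obtain ⟨x, hx⟩ : ∃ x : P, x ∉ Subgroup.center P := by
      by_contra hcon
      push Not at hcon
      have : Subgroup.center P = ⊤ := (Subgroup.eq_top_iff' _).2 hcon
      rw [this, Subgroup.index_top] at h
      exact (Nat.one_lt_pow (by norm_num) hp.one_lt).ne h
    set A := Subgroup.centralizer ({x} : Set P) with hA
    have h1 : Subgroup.center P < A := by
      rw [SetLike.lt_iff_le_and_exists]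
      exact ⟨Subgroup.center_le_centralizer _, x, Subgroup.mem_centralizer_singleton_iff.2 rfl, hx⟩
    have h2 : A < ⊤ := by
      rw [lt_top_iff_ne_top]
      intro h3
      apply hx
      rw [Subgroup.mem_center_iff]
      intro g
      have : g ∈ A := by rw [h3]; trivial
      exact Subgroup.mem_centralizer_singleton_iff.1 this
    have h3 := CfsgH3.card_mul_le_of_lt hPg h1
    have h4 := CfsgH3.card_mul_le_of_lt hPg h2
    rw [hZc] at h3
    rw [Subgroup.card_top, hP] at h4
    have hAc : Nat.card A = p ^ 3 := by
      apply le_antisymm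
      · exact Nat.le_of_mul_le_mul_right (by calc Nat.card A * p ≤ p ^ 4 := h4
          _ = p ^ 3 * p := by ring) hpos
      · calc p ^ 3 = p ^ 2 * p := by ring
          _ ≤ _ := h3
    have h5 := main x hx hAc
    rw [hZc] at h5
    rw [h5] at hcm
    exact Nat.eq_of_mul_eq_mul_right (mul_pos hpos (pow_pos hpos 2)) (by rw [hcm]; ring)

theorem p4_class {P : Type*} [Group P] [Finite P] (p : ℕ) [hpf : Fact p.Prime] (hP : Nat.card P = p ^ 4) :
    (commutator P).index = p ^ 2 ↔ Group.nilpotencyClass P = 3 := by
  have hp := hpf.out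
  have hPg : IsPGroup p P := IsPGroup.of_card hP
  haveI : Group.IsNilpotent P := hPg.isNilpotent
  have hpos : 0 < p := hp.pos
  constructor
  · intro h
    have hle : Group.nilpotencyClass P ≤ 3 := CfsgH1.class_le_pred (r := 4) (by norm_num) hP
    by_contra hne
    have h2 : Group.nilpotencyClass P ≤ 2 := by omega
    have h3 := (Subgroup.lowerCentralSeries_eq_bot_iff_nilpotencyClass_le (G := P)).2 h2
    have hcZ : commutator P ≤ Subgroup.center P := by
      intro z hz
      rw [Subgroup.mem_center_iff]
      intro g
      have h4 : ⁅Subgroup.lowerCentralSeries (⊤ : Subgroup P) 1, (⊤ : Subgroup P)⁆ = ⊥ := by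
        rw [← h3]; rfl
      have hz1 : z ∈ Subgroup.lowerCentralSeries (⊤ : Subgroup P) 1 := by
        rw [Subgroup.lowerCentralSeries_one]
        rwa [_root_.commutator_def] at hz
      have h5 := Subgroup.commutator_mem_commutator hz1 (Subgroup.mem_top g)
      rw [h4, Subgroup.mem_bot, commutatorElement_def] at h5
      calc g * z = (z * g * z⁻¹ * g⁻¹) * (g * z) := by rw [h5, one_mul]
        _ = z * g := by group
    have hcm := Subgroup.card_mul_index (commutator P)
    have hzm := Subgroup.card_mul_index (Subgroup.center P)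
    rw [hP] at hcm hzm
    rw [h] at hcm
    have hcc : Nat.card (commutator P) = p ^ 2 := Nat.eq_of_mul_eq_mul_right (pow_pos hpos 2) (by rw [hcm]; ring)
    have hcle : p ^ 2 ≤ Nat.card (Subgroup.center P) := by
      rw [← hcc]; exact Nat.card_le_card_of_injective _ (Subgroup.inclusion_injective hcZ)
    have hnab : ¬ (Subgroup.center P).index ∣ p := by
      intro hd
      have hcomm := comm_of_index_center_le hp hd
      have : commutator P = ⊥ := by
        rw [eq_bot_iff, _root_.commutator_def, Subgroup.commutator_le]
        intro a _ b _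
        rw [Subgroup.mem_bot, commutatorElement_def, hcomm a b]
        group
      rw [this, Subgroup.card_bot] at hcc
      exact (Nat.one_lt_pow (by norm_num) hp.one_lt).ne hcc
    have hzd : (Subgroup.center P).index ∣ p ^ 4 := Dvd.intro_left _ hzm
    obtain ⟨d, hd, hde⟩ := (Nat.dvd_prime_pow hp).1 hzd
    have hd2 : 2 ≤ d := by
      by_contra hlt
      apply hnab
      rw [hde]
      calc p ^ d ∣ p ^ 1 := pow_dvd_pow p (by omega)
        _ = p := pow_one p
    have hz2 : (Subgroup.center P).index = p ^ 2 := by
      rw [hde]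
      congr 1
      by_contra hd3
      have h6 : 3 ≤ d := by omega
      rw [hde] at hzm
      have h7 : p ^ 2 * p ^ 3 ≤ p ^ 4 := by
        rw [← hzm]; exact Nat.mul_le_mul hcle (Nat.pow_le_pow_right hpos h6)
      rw [← pow_add] at h7
      exact absurd (lt_of_lt_of_le (Nat.pow_lt_pow_right hp.one_lt (by norm_num : 4 < 2 + 3)) h7) (lt_irrefl _)
    have h8 := (p4_iff p hP).2 hz2
    rw [hcc] at h8
    have : p ^ 1 < p ^ 2 := Nat.pow_lt_pow_right hp.one_lt (by norm_num)
    rw [pow_one] at this
    omega
  · intro h
    exact CfsgH3.index_commutator_of_maxcl 4 (by norm_num) hP (by rw [h])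

end CfsgH4
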