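import Cfsg.Agent.H4.Qk8

set_option autoImplicit false
set_option linter.all false

/-! # Characters modulo a maximal ideal separate the `p`-regular classes -/

open Cfsg MonoidAlgebra
open CfsgH4 hiding centralChar sum_conj regInner_symm
open CfsgH5 hiding ev_ca
open ComplexConjugate

namespace CfsgQk

section Sep

variable {G : Type*} [Group G] [Fintype G] {M : Ideal AlgInt} [hMp : M.IsPrime] {p : ℕ} [hp : Fact p.Prime]

theorem reg_mul_eq_one {x u : G} (hx : ¬ p ∣ orderOf x) (hc : x * u = u * x) {k : ℕ} (hu : orderOf u = p ^ k)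
    (hxu : ¬ p ∣ orderOf (x * u)) : u = 1 := by
  by_contra hne
  have hk0 : k ≠ 0 := by
    rintro rfl
    rw [pow_zero] at hu
    exact hne (orderOf_eq_one_iff.1 hu)
  have hcop : (orderOf x).Coprime (orderOf u) := by
    rw [hu]
    exact Nat.Coprime.pow_right _ ((Nat.Prime.coprime_iff_not_dvd hp.out).2 hx).symm
  have hcm : Commute x u := hc
  apply hxu
  rw [hcm.orderOf_mul_eq_mul_orderOf_of_coprime hcop, hu]
  exact (dvd_pow_self p hk0).mul_left _

theorem isCen_single {K : Type*} [Group K] {x : K} (hx : ∀ y : K, y * x = x * y) : IsCen (single x (1 : ℂ) : MonoidAlgebra ℂ K) := by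
  classical
  intro y g
  rw [coeff_single_apply, coeff_single_apply]
  have h1 : x = y * g * y⁻¹ ↔ x = g := by
    constructor
    · intro h
      have h2 : y * g = x * y := by rw [h]; group
      rw [← hx y] at h2
      exact (mul_left_cancel h2).symm
    · intro h
      rw [← h, hx y]
      group
  by_cases h2 : x = g
  · rw [if_pos h2, if_pos (h1.2 h2)]
  · rw [if_neg h2, if_neg (fun h => h2 (h1.1 h))]

theorem conj_of_cong (hM : IsPModular p M) {x y : G} (hx : ¬ p ∣ orderOf x) (hy : ¬ p ∣ orderOf y)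
    (h : ∀ χ : IrrCharacter G, MemLocalIdeal M ((χ : G → ℂ) x - (χ : G → ℂ) y)) : IsConj x y := by
  classical
  by_contra hne
  obtain ⟨P, -, hP⟩ := exists_isSyl_ge (p := p) (C := Subgroup.centralizer ({x} : Set G)) (Q := ⊥) IsPGroup.of_bot bot_le
  set H : Subgroup G := Subgroup.zpowers x ⊔ P with hH
  haveI : Fintype H := Fintype.ofFinite _
  have hxH : x ∈ H := (le_sup_left : Subgroup.zpowers x ≤ H) (Subgroup.mem_zpowers x)
  have hPH : P ≤ H := le_sup_right
  have hcen : H ≤ Subgroup.centralizer ({x} : Set G) := sup_le (by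
    rw [Subgroup.zpowers_le, Subgroup.mem_centralizer_singleton_iff]) hP.1
  have hnorm : H ≤ Subgroup.normalizer (P : Set G) := by
    refine sup_le ?_ Subgroup.le_normalizer
    rw [Subgroup.zpowers_le]
    have hxc : ∀ u ∈ P, u * x = x * u := fun u hu => by
      have := hP.1 hu
      rwa [Subgroup.mem_centralizer_singleton_iff] at this
    refine Subgroup.mem_normalizer_iff.2 fun u => ⟨fun hu => ?_, fun hu => ?_⟩
    · rw [← hxc u hu, mul_inv_cancel_right]; exact hu
    · have h7 := hxc _ hu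
      have h8 : u = x * u * x⁻¹ := by
        calc u = x⁻¹ * (x * (x * u * x⁻¹)) * (x⁻¹ * x) := by
              rw [← h7]; group
          _ = x * u * x⁻¹ := by group
      rw [h8]; exact hu
  let x' : H := ⟨x, hxH⟩
  have hx'c : ∀ t : H, t * x' = x' * t := by
    intro t
    apply Subtype.ext
    have := hcen t.2
    rwa [Subgroup.mem_centralizer_singleton_iff] at this
  have hx'ci : ∀ t : H, t * x'⁻¹ = x'⁻¹ * t := fun t => by
    have : Commute t x' := hx'c t
    exact this.inv_right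
  set P' : Subgroup H := P.subgroupOf H with hP'
  haveI : Fintype P' := Fintype.ofFinite _
  have hP'n : ∀ (t u : H), u ∈ P' ↔ t * u * t⁻¹ ∈ P' := by
    intro t u
    rw [Subgroup.mem_subgroupOf, Subgroup.mem_subgroupOf]
    have := Subgroup.mem_normalizer_iff.1 (hnorm t.2) (u : G)
    exact this
  set c : ℂ := (Nat.card H : ℂ) * (Nat.card P' : ℂ)⁻¹ with hc
  have hPc : (Nat.card P' : ℂ) ≠ 0 := card_ne_zero P'
  have hHc : (Nat.card H : ℂ) ≠ 0 := card_ne_zero H
  let f : H → ℂ := fun t => if x'⁻¹ * t ∈ P' then c else 0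
  have hfc : IsClassFunction H f := by
    intro t s
    show (if x'⁻¹ * (s * t * s⁻¹) ∈ P' then c else 0) = if x'⁻¹ * t ∈ P' then c else 0
    have h1 : x'⁻¹ * (s * t * s⁻¹) = s * (x'⁻¹ * t) * s⁻¹ := by
      calc x'⁻¹ * (s * t * s⁻¹) = (x'⁻¹ * s) * t * s⁻¹ := by group
        _ = (s * x'⁻¹) * t * s⁻¹ := by rw [hx'ci s]
        _ = _ := by group
    rw [h1]
    by_cases h2 : x'⁻¹ * t ∈ P'
    · rw [if_pos h2, if_pos ((hP'n s _).1 h2)]
    · rw [if_neg h2, if_neg (fun h => h2 ((hP'n s _).2 h))]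
  -- coefficients
  have hcoef : ∀ ψ : IrrCharacter H, MemLocalRing M (classInner f (ψ : H → ℂ)) := by
    intro ψ
    obtain ⟨m, hm⟩ := CfsgRob.exists_mult P' ψ
    have h1 : classInner f (ψ : H → ℂ) = om (ψ : H → ℂ) (single x'⁻¹ 1) * m := by
      rw [classInner_char_right (IsIrr.isCharacter ψ.2)]
      have h2 : ∑ t : H, f t * (ψ : H → ℂ) t⁻¹ = ∑ t : H, (if t ∈ P' then c * (ψ : H → ℂ) (x' * t)⁻¹ else 0) := by
        refine Fintype.sum_equiv (Equiv.mulLeft x'⁻¹) _ _ fun t => ?_
        show (if x'⁻¹ * t ∈ P' then c else 0) * (ψ : H → ℂ) t⁻¹ = if x'⁻¹ * t ∈ P' then c * (ψ : H → ℂ) (x' * (x'⁻¹ * t))⁻¹ else 0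
        rw [mul_inv_cancel_left]
        by_cases h3 : x'⁻¹ * t ∈ P'
        · rw [if_pos h3, if_pos h3]
        · rw [if_neg h3, if_neg h3, zero_mul]
      have h4 : ∀ t : H, (ψ : H → ℂ) (x' * t)⁻¹ = om (ψ : H → ℂ) (single x'⁻¹ 1) * (ψ : H → ℂ) t⁻¹ := by
        intro t
        have h5 := ev_cen_mul ψ.2 (isCen_single hx'ci) (single t⁻¹ 1)
        rw [single_mul_single, ev_single, ev_single, one_mul, one_mul, one_mul] at h5
        rw [← h5, mul_inv_rev, hx'ci]
      rw [h2, ← Finset.sum_filter, Finset.sum_subtype (p := fun t => t ∈ P') _ (by intro t; simp)]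
      simp only [h4]
      rw [← Finset.mul_sum, ← Finset.mul_sum, hm, hc]
      field_simp
    rw [h1]
    refine MemLocalRing.mul (memLocalRing_om ψ.2 (isCen_single hx'ci) (inS_single memLocalRing_one _)) (memLocalRing_natCast m)
  -- values of the induced function
  have hexp : ∀ g : G, indFun H f g = ∑ ψ : IrrCharacter H, classInner f (ψ : H → ℂ) * indFun H (ψ : H → ℂ) g := by
    intro g
    conv_lhs => rw [classFun_expand hfc, indFun_sum]
    rw [Finset.sum_apply]
    refine Finset.sum_congr rfl fun ψ _ => ?_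
    rw [indFun_smul]
    rfl
  have hdiff : MemLocalIdeal M (indFun H f x - indFun H f y) := by
    rw [hexp, hexp, ← Finset.sum_sub_distrib]
    refine memLocalIdeal_sum _ _ fun ψ _ => ?_
    rw [← mul_sub]
    refine MemLocalIdeal.mul_left (hcoef ψ) ?_
    obtain ⟨n, hn⟩ := IsCharacter.expand (isCharacter_indFun H (IsIrr.isCharacter ψ.2))
    rw [hn, Finset.sum_apply, Finset.sum_apply, ← Finset.sum_sub_distrib]
    refine memLocalIdeal_sum _ _ fun χ _ => ?_
    rw [Pi.smul_apply, Pi.smul_apply, smul_eq_mul, smul_eq_mul, ← mul_sub]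
    exact MemLocalIdeal.mul_left (memLocalRing_natCast _) (h χ)
  have hterm : ∀ z : G, ¬ p ∣ orderOf z → extendByZero H f z = if z = x then c else 0 := by
    intro z hz
    by_cases hzH : z ∈ H
    · have h1 : extendByZero H f z = f ⟨z, hzH⟩ := by
        exact Subtype.val_injective.extend_apply f 0 ⟨z, hzH⟩
      rw [h1]
      show (if x'⁻¹ * ⟨z, hzH⟩ ∈ P' then c else 0) = _
      by_cases h2 : z = x
      · rw [if_pos h2, if_pos]
        have : x'⁻¹ * ⟨z, hzH⟩ = (1 : H) := by
          apply Subtype.ext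
          show x⁻¹ * z = 1
          rw [h2, inv_mul_cancel]
        rw [this]
        exact P'.one_mem
      · rw [if_neg h2, if_neg]
        intro h3
        rw [Subgroup.mem_subgroupOf] at h3
        have h4 : x⁻¹ * z ∈ P := h3
        obtain ⟨k, hk⟩ := (IsPGroup.iff_orderOf.1 hP.isPGroup) ⟨x⁻¹ * z, h4⟩
        have hk' : orderOf (x⁻¹ * z) = p ^ k := by rw [← hk, ← Subgroup.orderOf_coe]
        have h5 := hP.1 h4
        rw [Subgroup.mem_centralizer_singleton_iff] at h5
        have h6 := reg_mul_eq_one hx h5.symm hk' (by rwa [mul_inv_cancel_left])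
        exact h2 (by rw [inv_mul_eq_one] at h6; exact h6.symm)
    · have h1 : extendByZero H f z = 0 := by
        exact Function.extend_apply' _ _ _ (by rintro ⟨a, rfl⟩; exact hzH a.2)
      rw [h1, if_neg]
      rintro rfl
      exact hzH hxH
  have hreg : ∀ (z t : G), ¬ p ∣ orderOf z → ¬ p ∣ orderOf (t⁻¹ * z * t) := by
    intro z t hz
    have := orderOf_conj' z t⁻¹
    rw [inv_inv] at this
    rwa [this]
  have hvy : indFun H f y = 0 := by
    rw [indFun_apply]
    rw [Finset.sum_eq_zero, mul_zero]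
    intro t _
    rw [hterm _ (hreg y t hy), if_neg]
    intro h1
    apply hne
    refine isConj_iff.2 ⟨t, ?_⟩
    rw [← h1]
    group
  have hvx : indFun H f x = (Nat.card (Subgroup.centralizer ({x} : Set G)) : ℂ) * (Nat.card P' : ℂ)⁻¹ := by
    rw [indFun_apply]
    have h1 : ∑ t : G, extendByZero H f (t⁻¹ * x * t) = (Nat.card (Subgroup.centralizer ({x} : Set G)) : ℂ) * c := by
      have h2 : ∀ t : G, extendByZero H f (t⁻¹ * x * t) = if t ∈ Subgroup.centralizer ({x} : Set G) then c else 0 := by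
        intro t
        rw [hterm _ (hreg x t hx)]
        have h3 : t⁻¹ * x * t = x ↔ t ∈ Subgroup.centralizer ({x} : Set G) := by
          rw [Subgroup.mem_centralizer_singleton_iff]
          constructor
          · intro h4
            calc t * x = t * (t⁻¹ * x * t) := by rw [h4]
              _ = x * t := by group
          · intro h4
            calc t⁻¹ * x * t = t⁻¹ * (x * t) := by group
              _ = t⁻¹ * (t * x) := by rw [h4]
              _ = x := by group
        by_cases h5 : t ∈ Subgroup.centralizer ({x} : Set G)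
        · rw [if_pos h5, if_pos (h3.2 h5)]
        · rw [if_neg h5, if_neg (fun h => h5 (h3.1 h))]
      simp only [h2]
      rw [← Finset.sum_filter, Finset.sum_const, nsmul_eq_mul]
      congr 2
      rw [← Fintype.card_subtype, ← Nat.card_eq_fintype_card]
    rw [h1, hc]
    field_simp
  rw [hvx, hvy, sub_zero] at hdiff
  have hPcard : Nat.card P' = Nat.card P := Nat.card_congr (Subgroup.subgroupOfEquivOfLe hPH).toEquiv
  have h1 := Nat.ordProj_mul_ordCompl_eq_self (Nat.card (Subgroup.centralizer ({x} : Set G))) p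
  have h2 : ¬ p ∣ Nat.card (Subgroup.centralizer ({x} : Set G)) / p ^ (Nat.card (Subgroup.centralizer ({x} : Set G))).factorization p :=
    Nat.not_dvd_ordCompl hp.out Nat.card_pos.ne'
  have h3 : (Nat.card (Subgroup.centralizer ({x} : Set G)) : ℂ) * (Nat.card P' : ℂ)⁻¹ =
      ((Nat.card (Subgroup.centralizer ({x} : Set G)) / p ^ (Nat.card (Subgroup.centralizer ({x} : Set G))).factorization p : ℕ) : ℂ) := by
    rw [← div_eq_mul_inv, div_eq_iff hPc]
    rw [hPcard, hP.2]
    have h4 : ((p ^ (Nat.card (Subgroup.centralizer ({x} : Set G))).factorization p *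
      (Nat.card (Subgroup.centralizer ({x} : Set G)) / p ^ (Nat.card (Subgroup.centralizer ({x} : Set G))).factorization p) : ℕ) : ℂ) =
        (Nat.card (Subgroup.centralizer ({x} : Set G)) : ℂ) := by rw [h1]
    rw [← h4, Nat.cast_mul, mul_comm]
  rw [h3, memLocalIdeal_natCast_iff hM] at hdiff
  exact h2 hdiff

end Sep

section Fin

variable {G : Type*} [Group G] [Fintype G] {p : ℕ} [hp : Fact p.Prime]

theorem pow_part {x x' : G} (hx : (∃ k : ℕ, orderOf (x * x'⁻¹) = p ^ k) ∧ Commute (x * x'⁻¹) x' ∧ ¬ p ∣ orderOf x') :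
    x ^ (p ^ (Nat.card G).factorization p) = x' ^ (p ^ (Nat.card G).factorization p) := by
  obtain ⟨⟨k, hk⟩, hc, -⟩ := hx
  have h1 : x = (x * x'⁻¹) * x' := by group
  have h2 : (x * x'⁻¹) ^ (p ^ (Nat.card G).factorization p) = 1 := by
    rw [← orderOf_dvd_iff_pow_eq_one, hk]
    apply pow_dvd_pow
    have h3 : p ^ k ∣ Nat.card G := by rw [← hk]; exact orderOf_dvd_natCard _
    exact (hp.out.pow_dvd_iff_le_factorization Nat.card_pos.ne').1 h3
  conv_lhs => rw [h1]
  rw [hc.mul_pow, h2, one_mul]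

theorem pow_inj {z y : G} {q : ℕ} (hz : (orderOf z).Coprime q) (hy : (orderOf y).Coprime q) (h : z ^ q = y ^ q) : z = y := by
  have h1 : orderOf z = orderOf y := by
    rw [← Nat.Coprime.orderOf_pow hz, ← Nat.Coprime.orderOf_pow hy, h]
  obtain ⟨m, hm⟩ := exists_pow_eq_self_of_coprime hz.symm
  have h2 : q * m ≡ 1 [MOD orderOf z] := by
    apply pow_eq_pow_iff_modEq.1
    rw [pow_mul, hm, pow_one]
  rw [h1] at h2
  have h3 := pow_eq_pow_iff_modEq.2 h2
  rw [pow_mul, pow_one] at h3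
  rw [← hm, h, h3]

theorem sep_main (x y x' y' : G)
    (hx : (∃ k : ℕ, orderOf (x * x'⁻¹) = p ^ k) ∧ Commute (x * x'⁻¹) x' ∧ ¬ p ∣ orderOf x')
    (hy : (∃ k : ℕ, orderOf (y * y'⁻¹) = p ^ k) ∧ Commute (y * y'⁻¹) y' ∧ ¬ p ∣ orderOf y') :
    IsConj x' y' ↔ ∀ χ : IrrCharacter G, ∃ γ : AlgInt,
      (χ : G → ℂ) x ^ (p ^ (Nat.card G).factorization p) - (χ : G → ℂ) y ^ (p ^ (Nat.card G).factorization p) = (p : ℂ) * (γ : ℂ) := by
  set a := (Nat.card G).factorization p with ha
  have hxp := pow_part (p := p) hx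
  have hyp := pow_part (p := p) hy
  rw [← ha] at hxp hyp
  have hcg : ∀ χ : IrrCharacter G, ∃ r s : ℂ, IsIntegral ℤ r ∧ IsIntegral ℤ s ∧
      (χ : G → ℂ) x ^ p ^ a = (χ : G → ℂ) (x' ^ p ^ a) + p * r ∧ (χ : G → ℂ) y ^ p ^ a = (χ : G → ℂ) (y' ^ p ^ a) + p * s := by
    intro χ
    obtain ⟨r, hr, hr'⟩ := char_pow_congr hp.out a (IsIrr.isCharacter χ.2) x
    obtain ⟨s, hs, hs'⟩ := char_pow_congr hp.out a (IsIrr.isCharacter χ.2) y
    exact ⟨r, s, hr, hs, by rw [hr', hxp], by rw [hs', hyp]⟩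
  constructor
  · intro hc χ
    obtain ⟨r, s, hr, hs, h1, h2⟩ := hcg χ
    have h3 : (χ : G → ℂ) (x' ^ p ^ a) = (χ : G → ℂ) (y' ^ p ^ a) := by
      obtain ⟨c, rfl⟩ := isConj_iff.1 hc
      rw [conj_pow]
      exact (IsIrr.isClassFunction χ.2 (x' ^ p ^ a) c).symm
    refine ⟨⟨r - s, hr.sub hs⟩, ?_⟩
    rw [h1, h2, h3]
    show _ = (p : ℂ) * (r - s)
    ring
  · intro hall
    obtain ⟨M, hM⟩ := exists_mod p
    haveI := IsPModular.isPrime hM
    have hcopx : ∀ {g : G}, ¬ p ∣ orderOf g → (orderOf g).Coprime (p ^ a) := fun hg =>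
      Nat.Coprime.pow_right _ ((Nat.Prime.coprime_iff_not_dvd hp.out).2 hg).symm
    have hox : ¬ p ∣ orderOf (x' ^ p ^ a) := by rw [Nat.Coprime.orderOf_pow (hcopx hx.2.2)]; exact hx.2.2
    have hoy : ¬ p ∣ orderOf (y' ^ p ^ a) := by rw [Nat.Coprime.orderOf_pow (hcopx hy.2.2)]; exact hy.2.2
    have h1 := conj_of_cong hM hox hoy (fun χ => by
      obtain ⟨r, s, hr, hs, h1, h2⟩ := hcg χ
      obtain ⟨γ, hγ⟩ := hall χ
      have h3 : (χ : G → ℂ) (x' ^ p ^ a) - (χ : G → ℂ) (y' ^ p ^ a) = (p : ℂ) * ((γ : ℂ) - r + s) := by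
        rw [h1, h2] at hγ
        linear_combination hγ
      rw [h3]
      exact MemLocalIdeal.mul_right (memLocalIdeal_p hM) (MemLocalRing.add (MemLocalRing.sub (memLocalRing_algInt γ)
        (memLocalRing_of_isIntegral hr)) (memLocalRing_of_isIntegral hs)))
    obtain ⟨c, hc⟩ := isConj_iff.1 h1
    rw [← conj_pow] at hc
    have h2 : ¬ p ∣ orderOf (c * x' * c⁻¹) := by rw [orderOf_conj']; exact hx.2.2
    exact isConj_iff.2 ⟨c, pow_inj (hcopx h2) (hcopx hy.2.2) hc⟩

end Fin

end CfsgQk
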